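import Mathlib
import Cfsg.Agent.Std.E8C
import Cfsg.Agent.Spor.MX.O8pGen
import Cfsg.Agent.Spor.MX.S62Gen
import Cfsg.Agent.Ch.UniversalCover
import Cfsg.Agent.Cl.AutConj
import Cfsg.Agent.S0270
import Cfsg.Agent.S0296
import Cfsg.Agent.S0814
import Cfsg.Agent.S0817
import Cfsg.Agent.S2098

/-!
The rotation subgroup of the Weyl group of type `E₈` is the unique perfect double cover of `Ω₈⁺(2)`; its
automorphisms are induced by the Weyl group.
-/

set_option autoImplicit false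
set_option maxRecDepth 100000
set_option exponentiation.threshold 100000

namespace Cfsg.Agent.Std.E8

open Cfsg Cfsg.Agent.Spor Cfsg.Agent.Spor.FL Cfsg.Agent.Spor.MX Subgroup Function

noncomputable def hw0 : LT :=
(.node (.node (.node (.leaf [nat_lit 11357,nat_lit 8348,nat_lit 1085])
 (.leaf [nat_lit 13976,nat_lit 6402,nat_lit 1447,nat_lit 480]))
 (.leaf [nat_lit 13775,nat_lit 11174]))
 (.node (.leaf [nat_lit 13899,nat_lit 9056,nat_lit 1085])
 (.leaf [nat_lit 11831,nat_lit 2401])))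

noncomputable def hw1 : LT :=
(.node (.node (.node (.leaf [nat_lit 11357,nat_lit 8348,nat_lit 1085])
 (.leaf [nat_lit 9193]))
 (.leaf [nat_lit 13775,nat_lit 11174]))
 (.node (.leaf [nat_lit 13899,nat_lit 9056,nat_lit 1085])
 (.leaf [nat_lit 13842,nat_lit 2886])))

noncomputable def hw2 : LT :=
(.node (.node (.node (.leaf [nat_lit 11357,nat_lit 8348,nat_lit 1085])
 (.leaf [nat_lit 12439,nat_lit 4108,nat_lit 1326,nat_lit 360]))
 (.leaf [nat_lit 13775,nat_lit 11174]))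
 (.node (.leaf [nat_lit 13899,nat_lit 9056,nat_lit 1085])
 (.leaf [nat_lit 11961,nat_lit 7322])))

/-- Conjugation by an element of the Weyl group. -/
noncomputable abbrev cj (g : W) : MulAut L0 := MulAut.conjNormal g

theorem coe_cj (g : W) (a : L0) : (cj g a : W) = g * a * g⁻¹ := MulAut.conjNormal_apply g a

theorem cj_coe (g a : L0) : cj g a = g * a * g⁻¹ := Subtype.ext (coe_cj g a)

theorem c0_comm (a : L0) : a * c0 = c0 * a := Subtype.ext (by simp [coe_c0, c_comm])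

theorem c0_sq : c0 * c0 = 1 := Subtype.ext (by simp [coe_c0, c_sq])

theorem c0_ne : c0 ≠ 1 := fun h => c_ne (coe_c0 ▸ congrArg Subtype.val h)

theorem cj_c0 (g : W) : cj g c0 = c0 := Subtype.ext (by rw [coe_cj, coe_c0, c_comm, mul_inv_cancel_right])

theorem cen0 {a : L0} (h : ∀ b, a * b = b * a) : a = 1 ∨ a = c0 :=
  (cen_L0 fun b => congrArg Subtype.val (h b)).imp Subtype.ext fun h => Subtype.ext (h.trans coe_c0.symm)

/-- The projection to the quotient by the centre. -/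
noncomputable def pb : L0 →* Wb := mk.comp L0.subtype

theorem pb_eq {a : L0} : pb a = 1 ↔ a = 1 ∨ a = c0 := by
  rw [← map_one mk, show pb a = mk a from rfl, mk_eq, one_mul, ← coe_c0, Subtype.coe_inj, OneMemClass.coe_eq_one]

theorem card_two {A : Type*} [Group A] {K : Subgroup A} {z : A} (h1 : z ≠ 1) (h : ∀ a, a ∈ K ↔ a = 1 ∨ a = z) :
    Nat.card K = 2 := by
  rw [show Nat.card K = (K : Set A).ncard from rfl, show (K : Set A) = {1, z} from Set.ext h, Set.ncard_pair h1.symm]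

theorem card_W' : Nat.card W = 4 * Nat.card pb.range := by
  have h1 : L0.index = 2 := by
    rw [index_ker, MonoidHom.range_eq_top.2 fun u => (Int.units_eq_one_or u).elim (fun h => ⟨1, by simp [h]⟩)
      fun h => ⟨x 0, by rw [h, sg_x]⟩, card_top, Nat.card_eq_fintype_card, Fintype.card_units_int]
  rw [← card_mul_index L0, ← card_mul_index pb.ker, index_ker, h1, card_two c0_ne fun _ => pb_eq]; ring

/-- The relators hold up to sign. -/
noncomputable def relB (hw : LT) : Bool := band (hw.all (lettersLt 14400)) <| band (neW (tabW TX hw) 5 B [2] []) <|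
  band (!allL B fun b => Nat.beq (tabW TX hw 2 b) (traceP TX cw b)) <|
  o8p_rels.all fun u => bor (eqW (tabW TX hw) 5 B u []) (band (lettersLt 5 u)
    (allL B fun b => Nat.beq (traceP (tabW TX hw) u b) (traceP TX cw b)))

theorem lmH {hw : LT} (h : hw.all (lettersLt 14400) = true) : LM e 240 (tabW TX hw) (fun i => ev (hw.get i)) 5 B :=
  ⟨inj, tabs_tabW lm0.tabs h 5, fun g _ h => Subtype.ext (base g trivial h), by decide⟩

theorem eq_c0 {hw : LT} (h : hw.all (lettersLt 14400) = true) {u : List ℕ} (h1 : band (lettersLt 5 u)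
    (allL B fun b => Nat.beq (traceP (tabW TX hw) u b) (traceP TX cw b)) = true) :
    evalW (fun i => ev (hw.get i)) u = c0 :=
  FL.eq_of_tab (K := ⊤) (fun (g : L0) _ h => Subtype.ext (base (g : W) trivial h)) (by decide) trivial trivial
    ((lmH h).tabs.evalW ((band_iff _ _).1 h1).1) (lm0.tabs.evalW (by decide +kernel)) ((band_iff _ _).1 h1).2

section

variable {Q : Type} [Group Q] [IsSimpleGroup Q] {g : ℕ → Q} (hg : Gen ⊤ g o8p_rels 5 174182400)
include hg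

theorem gen_b {hw : LT} (h : relB hw = true) :
    Gen pb.range (fun i => pb (ev (hw.get i))) o8p_rels 5 174182400 := by
  simp only [relB, band_iff] at h
  obtain ⟨h1, h2, h3, h4⟩ := h
  have := (topEquiv (G := Q)).isSimpleGroup
  have h5 := hg.of_simple (o8p_bnd (wp_rels _)) (g' := fun i => pb (ev (hw.get i))) (x := 2) (fun i => by
    rw [← map_evalW, pb_eq]
    exact ((bor_iff _ _).1 (LT.all_get h4 i)).imp (lmH h1).eq (eq_c0 h1)) (by norm_num) fun h5 => by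
      rcases pb_eq.1 h5 with h6 | h6
      · simp only [neW, band_iff] at h2
        exact ne_of_tab inj ((lmH h1).tabs.evalW h2.1) ((lmH h1).tabs.evalW h2.2.1) (by decide) h2.2.2 (by simpa using h6)
      · exact ne_of_tab inj ((lmH h1).tabs 2 (by norm_num)) (lm0.tabs.evalW (by decide +kernel)) (by decide) h3 h6
  have h6 := finite_card.2
  rw [card_W'] at h6
  rwa [eq_of_le_of_card_ge (genLt_le (K := pb.range) fun i _ => ⟨_, rfl⟩) (by rw [h5.2.2]; omega)] at h5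

theorem exists_pi {hw : LT} (h : relB hw = true) : ∃ π : L0 →* Q, Surjective π ∧ (∀ a, π a = 1 ↔ a = 1 ∨ a = c0) ∧
    ∀ u, lettersLt 5 u = true → π (evalW (fun i => ev (hw.get i)) u) = evalW g u := by
  have h1 := gen_b hg h
  obtain ⟨φ, h2, h3⟩ := h1.exists_hom (o8p_bnd (wp_rels _)) hg.2.1
  have h4 : Bijective φ := by
    have : Finite Q := Nat.finite_of_card_ne_zero (by rw [← card_top, hg.2.2]; norm_num)
    exact (MonoidHom.range_eq_top.1 (h2.trans hg.1)).bijective_of_nat_card_le (by rw [h1.2.2, ← hg.2.2, card_top])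
  refine ⟨φ.comp pb.rangeRestrict, h4.2.comp pb.rangeRestrict_surjective, fun a => ?_, fun u hu => ?_⟩
  · rw [MonoidHom.comp_apply, map_eq_one_iff φ h4.1, ← pb_eq, Subtype.ext_iff]; rfl
  · rw [← h3 u hu]
    exact congrArg φ (Subtype.ext (map_evalW pb _ u))

theorem exists_three : ∃ π0 π1 π2 : L0 →* Q, ∃ p0 p1 p2 q0 q1 q2 : L0,
    (∀ π ∈ [π0, π1, π2], Surjective π ∧ ∀ a, π a = 1 ↔ a = 1 ∨ a = c0) ∧ π1 p1 = π0 p0 ∧ π2 p2 = π0 p0 ∧
    π1 q1 = π0 q0 ∧ π2 q2 = π0 q0 ∧ p0 * p0 = 1 ∧ p1 * p1 = c0 ∧ p2 * p2 = c0 ∧ q0 * q0 = c0 ∧ q1 * q1 = 1 ∧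
    q2 * q2 = c0 := by
  obtain ⟨π0, a1, a2, a3⟩ := exists_pi hg (hw := hw0) (by decide +kernel)
  obtain ⟨π1, b1, b2, b3⟩ := exists_pi hg (hw := hw1) (by decide +kernel)
  obtain ⟨π2, c1, c2, c3⟩ := exists_pi hg (hw := hw2) (by decide +kernel)
  have h1 : lettersLt 5 [0, 2, 3, 1, 2] = true := by decide +kernel
  have h2 : lettersLt 5 [4] = true := by decide +kernel
  refine ⟨π0, π1, π2, _, _, _, _, _, _, by simp only [List.forall_mem_cons]; simp [*], (b3 _ h1).trans (a3 _ h1).symm,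
    (c3 _ h1).trans (a3 _ h1).symm, (b3 _ h2).trans (a3 _ h2).symm, (c3 _ h2).trans (a3 _ h2).symm, ?_⟩
  simp only [← evalW_append]
  exact ⟨(lmH (by decide +kernel)).eq (w := []) (by decide +kernel), eq_c0 (by decide +kernel) (by decide +kernel),
    eq_c0 (by decide +kernel) (by decide +kernel), eq_c0 (by decide +kernel) (by decide +kernel),
    (lmH (by decide +kernel)).eq (w := []) (by decide +kernel), eq_c0 (by decide +kernel) (by decide +kernel)⟩

end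

theorem card_W : Nat.card W = 696729600 := by
  have := S0296.result (F := Cl.GF2) 4 le_rfl
  rw [card_W', (gen_b o8m_gen (hw := hw0) (by decide +kernel)).2.2]

theorem sq_eq {A Q : Type*} [Group A] [Group Q] {π : A →* Q} {z : A} (h : ∀ a, π a = 1 ↔ a = 1 ∨ a = z)
    (hz : ∀ a, a * z = z * a) (h2 : z * z = 1) {a b : A} (h1 : π a = π b) : a * a = b * b := by
  rcases (h (b⁻¹ * a)).1 (by simp [h1]) with h3 | h3
  · rw [inv_mul_eq_one.1 h3]
  · rw [inv_mul_eq_iff_eq_mul.1 h3, mul_assoc, ← mul_assoc z, ← hz, mul_assoc, h2, mul_one]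

theorem exists_equiv_aux {Q A : Type*} [Group Q] [Group.IsPerfect Q] [Group A] [Group.IsPerfect A]
    (hM : HasSchurMultiplier Q (Multiplicative (ZMod 2 × ZMod 2))) {π : A →* Q} (hs : Surjective π) {z : A}
    (h1 : z ≠ 1) (hz : ∀ a, a * z = z * a) (h2 : z * z = 1) (h : ∀ a, π a = 1 ↔ a = 1 ∨ a = z)
    {π0 π1 π2 : L0 →* Q} {p0 p1 p2 q0 q1 q2 : L0}
    (h3 : (∀ π ∈ [π0, π1, π2], Surjective π ∧ ∀ a, π a = 1 ↔ a = 1 ∨ a = c0) ∧ π1 p1 = π0 p0 ∧ π2 p2 = π0 p0 ∧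
    π1 q1 = π0 q0 ∧ π2 q2 = π0 q0 ∧ p0 * p0 = 1 ∧ p1 * p1 = c0 ∧ p2 * p2 = c0 ∧ q0 * q0 = c0 ∧ q1 * q1 = 1 ∧
    q2 * q2 = c0) : Group.IsPerfect L0 ∧ Nonempty (L0 ≃* A) := by
  obtain ⟨Γ, _, _, σ, hσ, ⟨κ⟩⟩ := hM.1
  have := Ch.isPerfect_of_isStemExtension hσ
  simp only [List.forall_mem_cons] at h3
  obtain ⟨⟨⟨a0, b0⟩, ⟨a1, b1⟩, ⟨a2, b2⟩, -⟩, e1, e2, e3, e4, e5, e6, e7, e8, e9, e10⟩ := h3
  have lift : ∀ {A : Type _} [Group A] {π : A →* Q} {z : A}, Surjective π → (∀ a, a * z = z * a) →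
      (∀ a, π a = 1 ↔ a = 1 ∨ a = z) → ∃ η : Γ →* A, ∀ a, π (η a) = σ a := fun hs hz h =>
    (Ch.exists_lift_of_cover hM hσ (Nat.card_congr κ.toEquiv) hs fun a ha => mem_center_iff.2 fun b => by
      rcases (h a).1 ha with rfl | rfl
      exacts [by simp, hz b]).imp fun _ => DFunLike.congr_fun
  obtain ⟨η0, c0'⟩ := lift a0 c0_comm b0
  obtain ⟨η1, c1⟩ := lift a1 c0_comm b1
  obtain ⟨η2, c2⟩ := lift a2 c0_comm b2
  obtain ⟨η, c3⟩ := (Ch.exists_lift_of_cover hM hσ (Nat.card_congr κ.toEquiv) hs fun a ha => mem_center_iff.2 fun b => by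
      rcases (h a).1 ha with rfl | rfl
      exacts [by simp, hz b]).imp fun _ => DFunLike.congr_fun
  replace c3 : ∀ a, π (η a) = σ a := c3
  obtain ⟨p, hp⟩ := hσ.1 (π0 p0)
  obtain ⟨q, hq⟩ := hσ.1 (π0 q0)
  have f : ∀ {π : L0 →* Q} {η : Γ →* L0} {p a}, (∀ a, π a = 1 ↔ a = 1 ∨ a = c0) → (∀ a, π (η a) = σ a) →
      σ p = π a → η (p * p) = a * a := fun h1 h2 h3 => by
    rw [map_mul]; exact sq_eq h1 c0_comm c0_sq ((h2 _).trans h3)
  have f1 := (f b0 c0' hp).trans e5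
  have f2 := (f b1 c1 (hp.trans e1.symm)).trans e6
  have f3 := (f b2 c2 (hp.trans e2.symm)).trans e7
  have f4 := (f b0 c0' hq).trans e8
  have f5 := (f b1 c1 (hq.trans e3.symm)).trans e9
  have f6 := (f b2 c2 (hq.trans e4.symm)).trans e10
  have k1 : p * p ∈ σ.ker := by rw [MonoidHom.mem_ker, ← c0', f1, map_one]
  have k2 : q * q ∈ σ.ker := by rw [MonoidHom.mem_ker, ← c1, f5, map_one]
  generalize p * p = P at *
  generalize q * q = R at *
  have k3 : ∀ a, σ a = 1 → a = 1 ∨ a = P ∨ a = R ∨ a = P * R := fun a ha => by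
    have : ∀ p q a : Multiplicative (ZMod 2 × ZMod 2), p ≠ 1 → q ≠ 1 → p ≠ q → a = 1 ∨ a = p ∨ a = q ∨ a = p * q := by
      decide
    simpa [← map_mul, Subtype.ext_iff] using this (κ ⟨P, k1⟩) (κ ⟨R, k2⟩) (κ ⟨a, ha⟩)
      (by simpa [Subtype.ext_iff] using fun e => c0_ne (by rw [← f2, e, map_one]))
      (by simpa [Subtype.ext_iff] using fun e => c0_ne (by rw [← f4, e, map_one]))
      (by simpa [Subtype.ext_iff] using fun e => c0_ne (by rw [← f4, ← e, f1]))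
  have s1 : Surjective η := MonoidHom.range_eq_top.1 (Ch.eq_top_of_map_eq_top_of_ker_le_commutator π
    (fun a ha => mem_center_iff.2 fun b => by
      rcases (h a).1 ha with rfl | rfl
      exacts [by simp, hz b]) (fun _ _ => Group.IsPerfect.mem_commutator) _ (eq_top_iff.2 fun a _ => by
        obtain ⟨b, rfl⟩ := hσ.1 a; exact ⟨_, ⟨b, rfl⟩, c3 b⟩))
  have key : ∀ {π' : L0 →* Q} {η' : Γ →* L0}, (∀ a, π' a = 1 ↔ a = 1 ∨ a = c0) → Surjective π' →
      (∀ a, π' (η' a) = σ a) → (η P = 1 ∧ η' P = 1 ∨ η P = z ∧ η' P = c0) → (η R = 1 ∧ η' R = 1 ∨ η R = z ∧ η' R = c0) →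
      (η' P = c0 ∨ η' R = c0) → Group.IsPerfect L0 ∧ Nonempty (L0 ≃* A) := fun {π' η'} b a c d1 d2 d3 => by
    have s2 : Surjective η' := fun u => by
      obtain ⟨v, hv⟩ := hσ.1 (π' u)
      obtain ⟨t, ht⟩ : ∃ t, η' t = c0 := d3.elim (⟨_, ·⟩) (⟨_, ·⟩)
      rcases (b ((η' v)⁻¹ * u)).1 (by simp [c, hv]) with h4 | h4
      · exact ⟨v, inv_mul_eq_one.1 h4⟩
      · exact ⟨v * t, by rw [map_mul, ht, ← h4, mul_inv_cancel_left]⟩
    have h4 : ∀ a, σ a = 1 → (η' a = 1 ↔ η a = 1) := fun a ha => by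
      rcases k3 a ha with rfl | rfl | rfl | rfl <;> rcases d1 with d1 | d1 <;> rcases d2 with d2 | d2 <;>
        simp [d1, d2, h1, h2, c0_ne, c0_sq]
    refine ⟨.ofSurjective s2, ⟨(QuotientGroup.quotientKerEquivOfSurjective _ s2).symm.trans
      ((QuotientGroup.quotientMulEquivOfEq (Subgroup.ext fun a => ⟨fun h5 => (h4 a ?_).1 h5, fun h5 => (h4 a ?_).2 h5⟩)).trans
      (QuotientGroup.quotientKerEquivOfSurjective _ s1))⟩⟩
    · rw [← c, h5, map_one]
    · rw [← c3, h5, map_one]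
  rcases (h (η P)).1 ((c3 _).trans k1) with d1 | d1 <;> rcases (h (η R)).1 ((c3 _).trans k2) with d2 | d2
  · obtain ⟨t, rfl⟩ := s1 z
    rcases k3 t ((c3 t).symm.trans ((h _).2 (.inr rfl))) with rfl | rfl | rfl | rfl <;> simp [d1, d2] at h1
  · exact key b0 a0 c0' (.inl ⟨d1, f1⟩) (.inr ⟨d2, f4⟩) (.inr f4)
  · exact key b1 a1 c1 (.inr ⟨d1, f2⟩) (.inl ⟨d2, f5⟩) (.inl f2)
  · exact key b2 a2 c2 (.inr ⟨d1, f3⟩) (.inr ⟨d2, f6⟩) (.inl f3)

end Cfsg.Agent.Std.E8
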