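import Mathlib
import Cfsg.Agent.Std.E8Q
import Cfsg.Agent.Spor.FL.Aut

/-!
Automorphisms of the double cover of `Ω₈⁺(2)`, the stabiliser of a root, and the classes of involutions.
-/

set_option autoImplicit false
set_option maxRecDepth 100000
set_option exponentiation.threshold 100000

namespace Cfsg.Agent.Std.E8

open Cfsg Cfsg.Agent.Spor Cfsg.Agent.Spor.FL Cfsg.Agent.Spor.MX Subgroup Function

/-- The simple quotient. -/
abbrev Q8 : Type := POmega Cl.GF2 (quadFormPlus 4 Cl.GF2)

instance : IsSimpleGroup Q8 := S0296.result (F := Cl.GF2) 4 le_rfl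

theorem center_Q8 : center Q8 = ⊥ := center_bot_of_card (by rw [o8k_cardG]; norm_num)

theorem perfect_of {Q : Type*} [Group Q] [IsSimpleGroup Q] (h : center Q = ⊥) : Group.IsPerfect Q :=
  ⟨(commutator_normal (G := Q) ⊤ ⊤).eq_bot_or_eq_top.resolve_left fun h1 => by
    rw [commutator_eq_bot_iff_le_centralizer, coe_top, centralizer_univ, h] at h1
    exact bot_ne_top (top_le_iff.1 h1)⟩

instance : Group.IsPerfect Q8 := perfect_of center_Q8

theorem exists_equiv {A : Type*} [Group A] [Group.IsPerfect A] {π : A →* Q8} (hs : Surjective π) {z : A}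
    (h1 : z ≠ 1) (hz : ∀ a, a * z = z * a) (h2 : z * z = 1) (h : ∀ a, π a = 1 ↔ a = 1 ∨ a = z) :
    Group.IsPerfect L0 ∧ Nonempty (L0 ≃* A) := by
  obtain ⟨π0, π1, π2, p0, p1, p2, q0, q1, q2, h3⟩ := exists_three o8m_gen
  exact exists_equiv_aux (S2098.result Cl.card_GF2) hs h1 hz h2 h h3

theorem exists_aut {A Q : Type*} [Group A] [Group Q] {π π' : A →* Q} (hs : Surjective π) (hs' : Surjective π')
    (h : ∀ a, π a = 1 ↔ π' a = 1) : ∃ α : MulAut Q, ∀ a, α (π a) = π' a := by
  refine ⟨(QuotientGroup.quotientKerEquivOfSurjective π hs).symm.trans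
    ((QuotientGroup.quotientMulEquivOfEq (Subgroup.ext h)).trans
      (QuotientGroup.quotientKerEquivOfSurjective π' hs')), fun a => ?_⟩
  rw [MulEquiv.trans_apply, (MulEquiv.symm_apply_eq _).2 (show π a = QuotientGroup.quotientKerEquivOfSurjective π hs a from rfl)]
  rfl

theorem aut_c0 (φ : MulAut L0) : φ c0 = c0 :=
  (cen0 fun b => by rw [← φ.apply_symm_apply b, ← map_mul, ← c0_comm, map_mul]).resolve_left
    (by simpa using c0_ne)

theorem ker_cj {g : W} (h : cj g = 1) : g = 1 ∨ g = c := cen_L0 fun a => by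
  rw [← mul_inv_eq_iff_eq_mul, ← coe_cj, h]; rfl

theorem cj_c : cj c = 1 := MulEquiv.ext fun a => Subtype.ext (by rw [coe_cj, ← c_comm, mul_inv_cancel_right]; rfl)

/-- Every automorphism is induced by the Weyl group. -/
theorem exists_cj [Group.IsPerfect L0] (φ : MulAut L0) : ∃ g, φ = cj g := by
  obtain ⟨π0, π1, π2, p0, p1, p2, q0, q1, q2, h3, e1, -, -, -, e5, e6, -⟩ := exists_three o8m_gen
  simp only [List.forall_mem_cons] at h3
  obtain ⟨⟨a0, b0⟩, ⟨a1, b1⟩, -⟩ := h3
  have h1 : ∀ φ : MulAut L0, ∃ α : MulAut Q8, ∀ a, α (π0 a) = π0 (φ a) := fun φ =>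
    exists_aut (π' := π0.comp φ) a0 (a0.comp φ.surjective) fun a => by
      rw [b0, MonoidHom.comp_apply, b0, MonoidHom.coe_coe, map_eq_one_iff φ φ.injective]
      conv_rhs => rw [← aut_c0 φ, φ.injective.eq_iff]
  choose Φ hΦ using h1
  let Ψ : MulAut L0 →* MulAut Q8 := MonoidHom.mk' Φ fun φ ψ => MulEquiv.ext fun q => by
    obtain ⟨a, rfl⟩ := a0 q
    rw [MulAut.mul_apply, hΦ, hΦ, hΦ, MulAut.mul_apply]
  have h2 : Injective Ψ := (injective_iff_map_eq_one Ψ).2 fun φ h => MulEquiv.toMonoidHom_injective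
    (Ch.lift_unique_of_isPerfect (ξ := π0) (fun a ha => mem_center_iff.2 fun b => by
      rcases (b0 a).1 ha with rfl | rfl
      exacts [by simp, c0_comm b]) (MonoidHom.ext fun a => (hΦ φ a).symm.trans (by rw [show Φ φ = 1 from h]; rfl)))
  have : Fact (Nat.Prime 2) := ⟨Nat.prime_two⟩
  have h4 := S0817.result (F := Cl.GF2) 2 1 le_rfl Cl.card_GF2 4 le_rfl
  rw [o8k_cardG] at h4
  have h5 : Nat.card Ψ.range ≠ Nat.card (MulAut Q8) := fun h => by
    have : Finite (MulAut Q8) := Nat.finite_of_card_ne_zero (by rw [h4]; norm_num)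
    obtain ⟨α, hα⟩ := exists_aut a0 a1 fun a => (b0 a).trans (b1 a).symm
    obtain ⟨φ, rfl⟩ := MonoidHom.range_eq_top.1 (eq_top_of_card_eq _ h) α
    have := sq_eq b0 c0_comm c0_sq (((hΦ φ p1).symm.trans (hα p1)).trans e1)
    rw [← map_mul, e6, e5, aut_c0] at this
    exact c0_ne this
  have h6 := card_subgroup_dvd_card Ψ.range
  rw [← Nat.card_congr (MonoidHom.ofInjective h2).toEquiv, h4] at h5 h6
  let κ : W →* MulAut L0 := MulAut.conjNormal
  have h7 := card_mul_index κ.ker
  rw [index_ker, card_W, card_two c_ne fun g => ⟨ker_cj, by rintro (rfl | rfl); exacts [one_mem _, cj_c]⟩] at h7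
  obtain ⟨k, hk⟩ := card_subgroup_dvd_card κ.range
  have h8 : k = 1 := by
    rw [hk, show Nat.card κ.range = 348364800 by omega] at h5 h6
    have h9 : k ∣ 3 := Nat.dvd_of_mul_dvd_mul_left (by norm_num : 0 < 348364800) h6
    exact ((Nat.dvd_prime Nat.prime_three).1 h9).resolve_right fun h => h5 (by rw [h]; rfl)
  obtain ⟨g, hg⟩ := MonoidHom.range_eq_top.1 (eq_top_of_card_eq κ.range (by rw [hk, h8, mul_one])) φ
  exact ⟨g, hg.symm⟩

/-- The stabiliser of a root. -/
noncomputable abbrev E : Subgroup L0 := MulAction.stabilizer L0 (e 0)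

theorem equiv_E : Nonempty (PSp 3 Cl.GF2 ≃* E) := by
  have := S0270.result (F := Cl.GF2) 3 (by norm_num) (by norm_num)
  have := (topEquiv (G := PSp 3 Cl.GF2)).isSimpleGroup
  have hl := lmH (hw := hw0) (by decide +kernel)
  have h1 := s6m_gen.of_simple (s6_bnd (wp_rels _)) (g' := fun i => ev (hw0.get i)) (x := 2)
    (fun i => hl.eq (w := []) (LT.all_get (f := fun u => eqW (tabW TX hw0) 5 B u []) (by decide +kernel) i)) (by norm_num)
    (by simpa using ne_of_tab inj (hl.tabs.evalW (w := [2]) (by decide)) (hl.tabs.evalW (w := []) (by decide)) (B := B)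
          (by decide) (by decide +kernel))
  have h2 : Nat.card E * 240 ≤ 348364800 := by
    have h3 := card_mul_index L0
    have h4 : L0.index = 2 := by
      rw [index_ker, MonoidHom.range_eq_top.2 fun u => (Int.units_eq_one_or u).elim (fun h => ⟨1, by simp [h]⟩)
        fun h => ⟨x 0, by rw [h, sg_x]⟩, card_top, Nat.card_eq_fintype_card, Fintype.card_units_int]
    have h5 := card_mul_index E
    rw [MulAction.index_stabilizer] at h5
    rw [h4, card_W] at h3
    exact (Nat.mul_le_mul_left _ orbit_L0).trans (by omega)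
  rw [eq_of_le_of_card_ge (K := E) (genLt_le fun i hi => ?_) (by rw [h1.2.2]; omega)] at h1
  · obtain ⟨φ⟩ := s6m_gen.equiv (s6_bnd (wp_rels _)) h1
    exact ⟨topEquiv.symm.trans φ⟩
  · have h3 : ∀ i < 4, tabW TX hw0 i 0 = 0 := by decide +kernel
    have := (hl.tabs i (by omega) 0 (by norm_num)).2
    rwa [h3 i hi] at this

instance : IsSimpleGroup E :=
  have := S0270.result (F := Cl.GF2) 3 (by norm_num) (by norm_num)
  equiv_E.elim fun φ => φ.symm.isSimpleGroup

theorem inner_E (φ : MulAut E) : ∃ a, φ = MulAut.conj a := by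
  obtain ⟨ψ⟩ := equiv_E
  have : Fact (Nat.Prime 2) := ⟨Nat.prime_two⟩
  have h1 := S0814.result (F := Cl.GF2) 2 1 le_rfl Cl.card_GF2 3 (by norm_num) (by norm_num)
  rw [Nat.card_congr (MulAut.congr ψ).toEquiv, Nat.card_congr ψ.toEquiv] at h1
  have h2 := Cl.Aut.card_inn_of_center_eq_bot (center_bot_of_card (G := E) (by
    rw [← Nat.card_congr ψ.toEquiv, s6k_cardG]; norm_num))
  obtain ⟨a, ha⟩ := eq_top_of_card_eq _ (h2.trans (by simpa using h1.symm)) ▸ mem_top φ
  exact ⟨a, ha.symm⟩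

theorem fix_or {g : W} (h : g * x 0 * g⁻¹ = x 0) : g • e 0 = e 0 ∨ g • e 0 = -e 0 := by
  obtain ⟨j, hj, h1, h2⟩ := perm g 0 (by norm_num)
  have h3 : j % 120 = 0 := M.x_inj (Nat.mod_lt _ (by norm_num)) (by norm_num)
    (congrArg mk ((x_mod j).trans (h2.symm.trans h)))
  have h4 : e 120 = -e 0 := by decide +kernel
  rw [h1, ← h4]
  exact (show j = 0 ∨ j = 120 by omega).imp (congrArg e) (congrArg e)

/-- Two orthogonal reflections. -/
def wa : List ℕ := [241]

/-- Three orthogonal reflections. -/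
def ws : List ℕ := [14406, 482]

/-- The central involution of a subsystem of type `D₄`. -/
def wd : List ℕ := [3724, 241]

/-- Four orthogonal reflections outside a subsystem of type `D₄`. -/
def we : List ℕ := [14286, 482]

/-- A square root of the central involution. -/
def wi : List ℕ := [11237, 8782, 2167, 360]

theorem classes {u : W} (h : u * u = 1 ∨ u * u = c) : u = 1 ∨ u = c ∨ ∃ g v : W, (g * u * g⁻¹ = v ∨ g * u * g⁻¹ = v * c) ∧
    (v = x 0 ∨ v = ev wa ∨ v = w ws ∨ v = ev wd ∨ v = ev we ∨ v = ev wi) := by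
  have : Fact (Nat.Prime 2) := ⟨Nat.prime_two⟩
  by_cases h0 : mk u = mk 1
  · exact (mk_eq.1 h0).imp_right fun h1 => .inl (h1.trans (one_mul _))
  have h1 : Nat.card Wb = 348364800 := by
    have := card_mul_index (zpowers c)
    rw [card_two c_ne fun _ => mem_zc, card_W] at this
    change (zpowers c).index = _
    omega
  have h2 := card_mul_index (genLt (M.wl p2_w) 13)
  rw [(p2_cb M).1, h1] at h2
  obtain ⟨t, ht, g, hg⟩ := conjTo_of_index (p := 2) (by omega) (fun a => cl2 M) (a := mk u) (orderOf_eq_prime (by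
    rw [pow_two, ← map_mul, ← map_one mk, mk_eq, one_mul]; exact h) h0)
  obtain ⟨g, rfl⟩ := QuotientGroup.mk'_surjective _ g
  rw [TM.wl_def, M_w, ← map_inv, ← map_mul, ← map_mul, mk_eq] at hg
  refine .inr (.inr ⟨g, _, hg, ?_⟩)
  rw [coe_ev (u := wa) (by decide), coe_ev (u := wd) (by decide), coe_ev (u := we) (by decide),
    coe_ev (u := wi) (by decide), ← w_x]
  interval_cases t
  exacts [.inl (lm.eq (by decide +kernel)), .inr (.inl (lm.eq (by decide +kernel))),
    .inr (.inr (.inl (lm.eq (by decide +kernel)))), .inr (.inr (.inr (.inl (lm.eq (by decide +kernel))))),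
    .inr (.inr (.inr (.inr (.inl (lm.eq (by decide +kernel)))))),
    .inr (.inr (.inr (.inr (.inr (lm.eq (by decide +kernel))))))]

theorem not_conj (g : W) : g * w wd * g⁻¹ ≠ w we := fun h => by
  have h1 := fd_n M
  have h2 := fe_n M
  rw [cen_one, TM.wl_def, M_w, show w _ = w wd from lm.eq (by decide +kernel)] at h1
  rw [cen_one, TM.wl_def, M_w, show w _ = w we from lm.eq (by decide +kernel), ← h] at h2
  have := Set.ncard_le_ncard_of_injOn (s := M.D ∩ (centralizer {mk (w wd)} : Set Wb))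
    (t := M.D ∩ (centralizer {mk (g * w wd * g⁻¹)} : Set Wb)) (fun a => mk g * a * (mk g)⁻¹)
    (fun a ha => ⟨M.conj_mem ha.1 _, by
      have := mem_centralizer_singleton_iff.1 ha.2
      rw [SetLike.mem_coe, mem_centralizer_singleton_iff, map_mul, map_mul, map_inv, conj_mul, conj_mul, this]⟩)
    (fun a _ b _ h => by simpa using h)
  omega

theorem five {g : W} (h1 : g ^ 5 = 1 ∨ g ^ 5 = c) (h2 : g * w ws * g⁻¹ = w ws) : g = 1 ∨ g = c := by
  have h3 := (c3 M).card
  rw [cen_one, TM.wl_def, M_w, show w _ = w ws from lm.eq (by decide +kernel)] at h3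
  have h4 : mk g ∈ centralizer {mk (w ws)} := mem_centralizer_singleton_iff.2 (by
    rw [← map_mul, ← map_mul, mul_inv_eq_iff_eq_mul.1 h2])
  have h5 : mk g ^ 5 = 1 := by rw [← map_pow, ← map_one mk, mk_eq, one_mul]; exact h1
  have h6 : mk g ^ 9216 = 1 := by rw [← h3]; exact congrArg Subtype.val (pow_card_eq_one' (x := (⟨_, h4⟩ : centralizer _)))
  have := pow_gcd_eq_one.2 ⟨h5, h6⟩
  rwa [show Nat.gcd 5 9216 = 1 by norm_num, pow_one, ← map_one mk, mk_eq, one_mul] at this

end Cfsg.Agent.Std.E8
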