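import Mathlib
import Cfsg.Agent.Std.E8A

/-!
Embeddings of the double cover of `Ω₈⁺(2)` whose central involution has its centraliser acting through the Weyl
group; traces.
-/

set_option autoImplicit false

namespace Cfsg.Agent.Std.E8

open Cfsg Cfsg.Agent.Spor Cfsg.Agent.Spor.FL Subgroup Function

theorem trace_nat {n : Type*} [Fintype n] [DecidableEq n] {A : Matrix n n ℂ} (h : A * A = (16 : ℂ) • A) :
    ∃ r : ℕ, A.trace = 16 * r := by
  have h1 : IsIdempotentElem (Matrix.toLin' ((16 : ℂ)⁻¹ • A)) := by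
    rw [IsIdempotentElem, Module.End.mul_eq_comp, ← Matrix.toLin'_mul, smul_mul_smul_comm, h, smul_smul]; norm_num
  have h2 := (LinearMap.IsIdempotentElem.isProj_range _ h1).trace
  rw [Matrix.trace_toLin'_eq, Matrix.trace_smul] at h2
  exact ⟨_, by rw [← h2]; simp⟩

theorem four_mat {n : Type*} [Fintype n] [DecidableEq n] {A B C D : Matrix n n ℂ} (h1 : Commute A B) (h2 : Commute A C)
    (h3 : Commute A D) (h4 : Commute B C) (h5 : Commute D B) (h6 : Commute D C) (hA : A * A = 1) (hB : B * B = 1)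
    (hC : C * C = 1) (hD : D * D = 1 ∨ D * D = A) :
    ∃ r : ℕ, ((1 + A) * (1 + D) * ((1 + B) * (1 + C))).trace = 16 * r := by
  have a : ∀ {P Q : Matrix n n ℂ}, Commute P Q → Commute (1 + P) (1 + Q) := fun h =>
    (Commute.one_left _).add_left ((Commute.one_right _).add_right h)
  have b : ∀ {P : Matrix n n ℂ}, P * P = 1 → (1 + P) * (1 + P) = (2 : ℂ) • (1 + P) := fun h => by
    rw [two_smul, add_mul, one_mul, mul_add, mul_one, h, add_comm _ 1]
  have c : ∀ {P Q : Matrix n n ℂ}, Commute P Q → P * P = 1 → Q * Q = 1 →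
      (1 + P) * (1 + Q) * ((1 + P) * (1 + Q)) = (4 : ℂ) • ((1 + P) * (1 + Q)) := fun h hP hQ => by
    rw [(a h).symm.mul_mul_mul_comm, b hP, b hQ, smul_mul_smul_comm]; norm_num
  have d : (1 + A) * (1 + D) * ((1 + A) * (1 + D)) = (4 : ℂ) • ((1 + A) * (1 + D)) := hD.elim (c h3 hA) fun h => by
    subst h
    have : (1 + D * D) * (1 + D) * ((1 + D * D) * (1 + D)) = (4 : ℕ) • ((1 + D * D) * (1 + D)) +
      (D * D * (D * D) - 1) * (D * D + D + D + 1 + 1 + 1) := by noncomm_ring
    rw [this, hA, sub_self, zero_mul, add_zero, ← Nat.cast_smul_eq_nsmul ℂ]; rfl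
  refine trace_nat ?_
  rw [(((a h1).mul_right (a h2)).mul_left ((a h5).mul_right (a h6))).symm.mul_mul_mul_comm, d, c h4 hB hC,
    smul_mul_smul_comm]
  norm_num

/-- The complex representation. -/
noncomputable def rho : W →* Matrix (Fin 8) (Fin 8) ℂ := (Int.castRingHom ℂ).mapMatrix.toMonoidHom.comp mat

theorem trace_rho (g : W) : (rho g).trace = tr g := by simp [rho, tr, Matrix.trace]

theorem four {a b c d : W} {ε : ℤ} (hε : ε * ε = 1) (h1 : Commute a b) (h2 : Commute a c) (h3 : Commute a d)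
    (h4 : Commute b c) (h5 : Commute d b) (h6 : Commute d c) (ha : a * a = 1) (hb : b * b = 1) (hc : c * c = 1)
    (hd : d * d = 1) : ∃ r : ℕ, 8 + tr b + tr c + tr (b * c) + tr d + tr (d * b) + tr (d * c) + tr (d * (b * c)) +
      ε * (tr a + tr (a * b) + tr (a * c) + tr (a * (b * c)) + tr (a * d) + tr (a * (d * b)) + tr (a * (d * c)) +
        tr (a * (d * (b * c)))) = 16 * r := by
  obtain ⟨r, h⟩ := four_mat (A := (ε : ℂ) • rho a) ((h1.map rho).smul_left _) ((h2.map rho).smul_left _)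
    ((h3.map rho).smul_left _) (h4.map rho) (h5.map rho) (h6.map rho)
    (by rw [smul_mul_smul_comm, ← map_mul, ha, map_one, ← Int.cast_mul, hε]; simp) (by rw [← map_mul, hb, map_one])
    (by rw [← map_mul, hc, map_one]) (.inl (by rw [← map_mul, hd, map_one]))
  simp only [mul_add, add_mul, one_mul, mul_one, smul_mul_assoc, mul_assoc, ← map_mul, Matrix.trace_add,
    Matrix.trace_smul, trace_rho, Matrix.trace_one, Fintype.card_fin, smul_eq_mul] at h
  exact ⟨r, by rw [← Int.cast_inj (α := ℂ)]; push_cast at h ⊢; linear_combination h⟩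

theorem fourI {b c d : W} (h4 : Commute b c) (h5 : Commute d b) (h6 : Commute d c) (hb : b * b = 1) (hc : c * c = 1)
    (hd : d * d * (d * d) = 1) : ∃ r : ℕ, 8 + tr b + tr c + tr (b * c) -
      (tr (d * d) + tr (d * (d * b)) + tr (d * (d * c)) + tr (d * (d * (b * c)))) = 16 * r := by
  obtain ⟨r, h⟩ := four_mat (A := (-1 : ℂ) • rho (d * d)) (D := Complex.I • rho d)
    (((h5.mul_left h5).map rho).smul_left _) (((h6.mul_left h6).map rho).smul_left _)
    (((((Commute.refl d).mul_left (.refl d)).map rho).smul_left _).smul_right _)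
    (h4.map rho) ((h5.map rho).smul_left _) ((h6.map rho).smul_left _)
    (by rw [smul_mul_smul_comm, ← map_mul, hd, map_one]; simp) (by rw [← map_mul, hb, map_one])
    (by rw [← map_mul, hc, map_one]) (.inr (by rw [smul_mul_smul_comm, ← map_mul, Complex.I_mul_I]))
  simp only [mul_add, add_mul, one_mul, mul_one, smul_mul_assoc, mul_smul_comm, mul_assoc, ← map_mul, Matrix.trace_add,
    Matrix.trace_smul, trace_rho, Matrix.trace_one, Fintype.card_fin, smul_eq_mul] at h
  have h1 := congrArg Complex.re h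
  simp at h1
  exact ⟨r, by rw [← Int.cast_inj (α := ℝ)]; push_cast; linear_combination h1⟩

theorem coe_mul_c0 (a : L0) : ((a * c0 : L0) : W) = a * c := by rw [coe_mul, coe_c0]

theorem cj_one (a : L0) : cj 1 a = a := Subtype.ext (by simp)

theorem cj_mul (g g' : W) (a : L0) : cj (g * g') a = cj g (cj g' a) := Subtype.ext (by simp [mul_assoc])

theorem sg_c : sg c = 1 := coe_c0 ▸ c0.2

variable {G : Type*} [Group G] {ι ι' : L0 →* G}

/-- `g` acts on the image as `u`. -/
def Acts (ι : L0 →* G) (g : G) (u : W) : Prop := ∀ a, g * ι a * g⁻¹ = ι (cj u a)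

/-- Elements of odd order. -/
def Od (k : G) : Prop := ∃ n, Odd n ∧ k ^ n = 1

theorem Od.eq_one {k : G} (h : Od k) {m : ℕ} (h1 : k ^ 2 ^ m = 1) : k = 1 := by
  obtain ⟨n, h2, h3⟩ := h
  have := pow_gcd_eq_one.2 ⟨h3, h1⟩
  rwa [show n.gcd (2 ^ m) = 1 from (Nat.coprime_two_right.2 h2).pow_right m, pow_one] at this

theorem Od.conj {k : G} (h : Od k) (g : G) : Od (g * k * g⁻¹) :=
  h.imp fun n h => ⟨h.1, by rw [conj_pow, h.2]; simp⟩

theorem acts_one : Acts ι 1 1 := fun a => by simp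

theorem acts_self (l : L0) : Acts ι (ι l) l := fun a => by rw [cj_coe, map_mul, map_mul, map_inv]

theorem acts_iff {k : G} : Acts ι k 1 ↔ ∀ a, Commute k (ι a) :=
  forall_congr' fun a => by rw [cj_one, mul_inv_eq_iff_eq_mul]; rfl

namespace Acts

variable {g g' : G} {u u' : W}

theorem mul (h : Acts ι g u) (h' : Acts ι g' u') : Acts ι (g * g') (u * u') := fun a => by
  rw [cj_mul, ← h, ← h']; group

theorem inv (h : Acts ι g u) : Acts ι g⁻¹ u⁻¹ := fun a => by
  have := h (cj u⁻¹ a)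
  rw [← cj_mul, mul_inv_cancel, cj_one] at this
  rw [← this]; group

theorem pow (h : Acts ι g u) (n : ℕ) : Acts ι (g ^ n) (u ^ n) := by
  induction n with
  | zero => simpa using acts_one
  | succ n ih => rw [pow_succ, pow_succ]; exact ih.mul h

theorem mul_c (h : Acts ι g u) : Acts ι g (u * c) := fun a => by rw [cj_mul, cj_c, h]; rfl

theorem comm (h : Acts ι g u) {a : L0} (h1 : u * a = a * u) : Commute g (ι a) := by
  have := h a
  rwa [show cj u a = a from Subtype.ext (by rw [coe_cj, h1, mul_inv_cancel_right]), mul_inv_eq_iff_eq_mul] at this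

theorem comm_c (h : Acts ι g u) : Commute g (ι c0) := h.comm (by rw [coe_c0, c_comm])

theorem conj_eq (h : Acts ι g u) (a : L0) {b : L0} (h1 : a * u = b * u * a) : ι a * g * (ι a)⁻¹ = ι b * g := by
  have := h a⁻¹
  rw [show cj u a⁻¹ = a⁻¹ * b from Subtype.ext (by
    rw [coe_cj, coe_mul, coe_inv, eq_inv_mul_iff_mul_eq, ← mul_assoc, ← mul_assoc, h1]; group), map_mul, map_inv,
    mul_inv_eq_iff_eq_mul] at this
  rw [mul_assoc, this]; group

end Acts

/-- The set-up. -/
structure Emb (ι : L0 →* G) : Prop where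
  inj : Injective ι
  act : ∀ g, Commute g (ι c0) → ∃ u, Acts ι g u
  uniq : ∀ k, Acts ι k 1 → k * k = 1 → k = 1 ∨ k = ι c0
  odd : ∀ k k', Acts ι k 1 → Acts ι k' 1 → Od k → Od k' → Od (k * k')

/-- Twisting by an element of the Weyl group. -/
noncomputable def tw (ι : L0 →* G) (g : W) : L0 →* G := ι.comp (cj g).toMonoidHom

theorem tw_apply (g : W) (a : L0) : tw ι g a = ι (cj g a) := rfl

theorem tw_c (g : W) : tw ι g c0 = ι c0 := by rw [tw_apply, cj_c0]

theorem acts_tw {g u : W} {a : G} : Acts (tw ι g) a u ↔ Acts ι a (g * u * g⁻¹) :=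
  .symm ((cj g).surjective.forall.trans (forall_congr' fun b => by
    rw [tw_apply, tw_apply, ← cj_mul, ← cj_mul, inv_mul_cancel_right]))

/-- Conjugation. -/
def cg (g : G) (ι : L0 →* G) : L0 →* G := (MulAut.conj g).toMonoidHom.comp ι

theorem cg_apply (g : G) (a : L0) : cg g ι a = g * ι a * g⁻¹ := rfl

theorem acts_cg {g a : G} {u : W} : Acts (cg g ι) (g * a * g⁻¹) u ↔ Acts ι a u := forall_congr' fun b => by
  rw [cg_apply, cg_apply, conj_inv, conj_mul, conj_mul, mul_left_inj, mul_right_inj]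

/-- The trace of the preimage. -/
noncomputable def chi (ι : L0 →* G) : G → ℤ := extend ι (fun l => tr l) 0

/-- Products of an element of the image and an element of odd order centralising the image. -/
def Nr (ι : L0 →* G) (g : G) : Prop := ∃ l k, Acts ι k 1 ∧ Od k ∧ g = ι l * k

namespace Emb

variable (e : Emb ι)
include e

omit e in
theorem zz : ι c0 * ι c0 = 1 := by rw [← map_mul, c0_sq, map_one]

theorem z_ne : ι c0 ≠ 1 := (map_ne_one_iff _ e.inj).2 c0_ne

theorem one_or {u : W} (h : Acts ι 1 u) : u = 1 ∨ u = c :=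
  ker_cj (MulEquiv.ext fun a => e.inj (by simpa using (h a).symm))

theorem eq_or {g : G} {u u' : W} (h : Acts ι g u) (h' : Acts ι g u') : u' = u ∨ u' = u * c := by
  have := e.one_or (inv_mul_cancel g ▸ h.inv.mul h')
  rwa [inv_mul_eq_one, inv_mul_eq_iff_eq_mul, eq_comm] at this

theorem sg_eq {g : G} {u u' : W} (h : Acts ι g u) (h' : Acts ι g u') : sg u' = sg u := by
  rcases e.eq_or h h' with rfl | rfl <;> simp [sg_c]

theorem conj_eq {g g' : G} {u u' : W} (h : Acts ι g u) (h' : Acts ι g' u') (hc : Commute g g') (h1 : tr u' ≠ 0) :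
    u * u' * u⁻¹ = u' :=
  (e.eq_or h' (by simpa [hc.eq] using (h.mul h').mul h.inv)).resolve_right fun h2 => by
    have := tr_conj u u'
    rw [h2, tr_mul_c] at this; omega

theorem tw (g : W) : Emb (tw ι g) where
  inj := e.inj.comp (cj g).injective
  act a h := by
    obtain ⟨u, hu⟩ := e.act a (by rwa [tw_c] at h)
    exact ⟨g⁻¹ * u * g, acts_tw.2 (by simpa [mul_assoc] using hu)⟩
  uniq k h := by simpa [tw_c] using e.uniq k (by simpa using acts_tw.1 h)
  odd k k' h h' := e.odd k k' (by simpa using acts_tw.1 h) (by simpa using acts_tw.1 h')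

theorem cg (g : G) : Emb (cg g ι) where
  inj := (MulAut.conj g).injective.comp e.inj
  act a h := by
    obtain ⟨a, rfl⟩ := (MulAut.conj g).surjective a
    exact (e.act a (h.of_map (MulAut.conj g).injective)).imp fun u => acts_cg.2
  uniq k h h1 := by
    obtain ⟨k, rfl⟩ := (MulAut.conj g).surjective k
    rw [← map_mul, map_eq_one_iff _ (MulAut.conj g).injective] at h1
    exact (e.uniq k (acts_cg.1 h) h1).imp (fun h => by simp [h]) (congrArg _)
  odd k k' h h' h1 h2 := by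
    obtain ⟨k, rfl⟩ := (MulAut.conj g).surjective k
    obtain ⟨k', rfl⟩ := (MulAut.conj g).surjective k'
    rw [← map_mul]
    exact (e.odd k k' (acts_cg.1 h) (acts_cg.1 h') (by simpa [mul_assoc] using h1.conj g⁻¹)
      (by simpa [mul_assoc] using h2.conj g⁻¹)).conj g

theorem inner {t : G} {a : L0} (h : Acts ι t a) (h1 : t * t = 1) (h2 : a * a = 1) : t = ι a ∨ t = ι (a * c0) := by
  have h3 : Commute t (ι a) := h.comm rfl
  have h4 : ι a * ι a = 1 := by rw [← map_mul, h2, map_one]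
  rw [map_mul, ← inv_eq_of_mul_eq_one_right h4, eq_inv_mul_iff_mul_eq, eq_inv_iff_mul_eq_one, h3.eq]
  refine e.uniq _ ?_ (by rw [h3.mul_mul_mul_comm, h1, h4, one_mul])
  simpa only [← coe_mul, h2, coe_one] using (acts_self a).mul h

theorem nr_mul {g g' : G} (h : Nr ι g) (h' : Nr ι g') : Nr ι (g * g') := by
  obtain ⟨l, k, h1, h2, rfl⟩ := h
  obtain ⟨l', k', h3, h4, rfl⟩ := h'
  exact ⟨l * l', k * k', by simpa using h1.mul h3, e.odd _ _ h1 h3 h2 h4, by
    rw [map_mul, (acts_iff.1 h1 l').mul_mul_mul_comm]⟩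

theorem nr_three {g : G} (h : Commute g (ι c0)) (h3 : g ^ 3 = 1) : Nr ι g := by
  obtain ⟨u, hu, h1⟩ : ∃ u, Acts ι g u ∧ u ^ 3 = 1 := by
    obtain ⟨u, hu⟩ := e.act g h
    refine (e.one_or (h3 ▸ hu.pow 3)).elim (⟨u, hu, ·⟩) fun h1 => ⟨_, hu.mul_c, ?_⟩
    rw [Commute.mul_pow (c_comm u), h1, ← pow_succ', show 3 + 1 = 2 * 2 from rfl, pow_mul, pow_two c, c_sq, one_pow]
  have h2 : u ∈ L0 := (Int.units_eq_one_or (sg u)).resolve_right fun h2 => by
    have := congrArg sg h1
    rw [map_pow, h2, map_one] at this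
    exact absurd this (by decide)
  lift u to L0 using h2
  refine ⟨u, (ι u)⁻¹ * g, by simpa using (acts_self u).inv.mul hu, ⟨3, by decide, ?_⟩, by group⟩
  rw [(hu.comm rfl).symm.inv_left.mul_pow, h3, inv_pow, ← map_pow, show u ^ 3 = 1 from Subtype.ext h1]; simp

theorem mem_of_nr {g : G} (h : Nr ι g) (h4 : g ^ 4 = 1) : ∃ l, ι l = g := by
  obtain ⟨l, k, h1, h2, rfl⟩ := h
  have h3 := e.one_or (h4 ▸ ((acts_self l).mul h1).pow 4)
  rw [(acts_iff.1 h1 l).symm.mul_pow, ← map_pow] at h4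
  have h5 : ι (l ^ 4) ^ 2 = 1 := by
    rw [mul_one, ← coe_c0, ← coe_pow, OneMemClass.coe_eq_one, Subtype.coe_inj] at h3
    rcases h3 with h3 | h3 <;> simp [h3, pow_two, zz]
  rw [eq_inv_of_mul_eq_one_left h4, inv_pow, inv_eq_one, ← pow_mul] at h5
  exact ⟨l, by rw [h2.eq_one (m := 3) h5, mul_one]⟩

theorem chi_self (l : L0) : chi ι (ι l) = tr l := e.inj.extend_apply _ _ l

omit e in
theorem chi_out {a : G} (h : ¬ ∃ l, ι l = a) : chi ι a = 0 := extend_apply' _ _ _ h

theorem chi_conj {g : G} (h : Commute g (ι c0)) (a : G) : chi ι (g * a * g⁻¹) = chi ι a := by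
  obtain ⟨u, hu⟩ := e.act g h
  by_cases h1 : ∃ l, ι l = a
  · obtain ⟨l, rfl⟩ := h1
    rw [hu, e.chi_self, e.chi_self, coe_cj, tr_conj]
  · rw [chi_out h1, chi_out fun ⟨l, h2⟩ => h1 ⟨_, by rw [← hu.inv, h2]; group⟩]

theorem chi_mul (a : G) : chi ι (a * ι c0) = -chi ι a := by
  by_cases h1 : ∃ l, ι l = a
  · obtain ⟨l, rfl⟩ := h1
    rw [← map_mul, e.chi_self, e.chi_self, coe_mul_c0, tr_mul_c]
  · rw [chi_out h1, chi_out fun ⟨l, h2⟩ => h1 ⟨l * c0⁻¹, by rw [map_mul, h2, map_inv]; group⟩, neg_zero]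

theorem five {u : G} (h : Acts ι u (w ws)) {g g' : G} (h1 : Commute g u) (h2 : Commute g (ι c0)) (h3 : g ^ 5 = 1)
    (h1' : Commute g' u) (h2' : Commute g' (ι c0)) (h3' : g' ^ 5 = 1) (h4 : (g * g') ^ 2 = 1) : g * g' = 1 := by
  have key : ∀ {g : G}, Commute g u → Commute g (ι c0) → g ^ 5 = 1 → Acts ι g 1 := fun h1 h2 h3 => by
    obtain ⟨v, hv⟩ := e.act _ h2
    rcases E8.five (e.one_or (h3 ▸ hv.pow 5)) (e.conj_eq hv h h1 (by rw [tr_w (by decide)]; decide +kernel)) with rfl | rfl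
    exacts [hv, c_sq ▸ hv.mul_c]
  exact (e.odd _ _ (key h1 h2 h3) (key h1' h2' h3') ⟨5, by decide, h3⟩ ⟨5, by decide, h3'⟩).eq_one (m := 1) h4

end Emb

end Cfsg.Agent.Std.E8
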