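import Mathlib
import Cfsg.Agent.Std.E8G

/-!
Pairs of embeddings of the double cover of `Ω₈⁺(2)` with commuting central involutions: certificates.
-/

set_option autoImplicit false

namespace Cfsg.Agent.Std.E8

open Cfsg Cfsg.Agent.Spor Cfsg.Agent.Spor.FL Subgroup Function

theorem ev_append (u v : List ℕ) : ev (u ++ v) = ev u * ev v := evalW_append _ _ _

theorem tr_cases {q : L0} (h : q * q = 1) : q = 1 ∨ q = c0 ∨ tr q = 0 ∨ tr q = 4 ∨
    tr q = -4 ∧ ∃ g, q = cj g (ev wa * c0) := by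
  rw [← OneMemClass.coe_eq_one, ← Subtype.coe_inj, coe_c0]
  refine (classes (.inl (congrArg Subtype.val h))).imp_right (Or.imp_right fun ⟨g, v, h1, h2⟩ => ?_)
  have h3 : sg v = 1 := by
    have : sg (g * q * g⁻¹) = 1 := (cj g q).2
    rcases h1 with h1 | h1 <;> simpa [h1, sg_c] using this
  have h4 : v * v = 1 := by
    have : g * q * g⁻¹ * (g * q * g⁻¹) = 1 := by rw [conj_mul, ← coe_mul, h]; simp
    rcases h1 with h1 | h1
    · rwa [h1] at this
    · rwa [h1, (Commute.symm (c_comm v)).mul_mul_mul_comm, c_sq, mul_one] at this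
  have h5 : tr q = tr v ∨ tr q = -tr v ∧ g * q * g⁻¹ = v * c :=
    h1.imp (fun h1 => by rw [← h1, tr_conj]) fun h1 => ⟨by rw [← tr_mul_c, ← h1, tr_conj], h1⟩
  rcases h2 with rfl | rfl | rfl | rfl | rfl | rfl
  · rw [sg_x] at h3; exact absurd h3 (by decide)
  · have : tr (ev wa) = 4 := by rw [coe_ev (by decide), tr_w (by decide)]; decide +kernel
    rw [this] at h5
    exact .inr (h5.imp_right fun h5 => ⟨h5.1, g⁻¹, Subtype.ext (by rw [coe_cj, coe_mul_c0, ← h5.2]; group)⟩)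
  · rw [ws, sg_odd (by decide)] at h3; exact absurd h3 (by decide)
  · have : tr (ev wd) = 0 := by rw [coe_ev (by decide), tr_w (by decide)]; decide +kernel
    omega
  · have : tr (ev we) = 0 := by rw [coe_ev (by decide), tr_w (by decide)]; decide +kernel
    omega
  · rw [← coe_mul, ← ev_append, show ev (wi ++ wi) = c0 from lm0.eq (by decide +kernel), coe_c0] at h4
    exact absurd h4 c_ne

/-- Equal words in the rotation subgroup. -/
noncomputable abbrev eq0 (u v : List ℕ) : Bool := eqW TX 14400 B u v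

/-- Equal words. -/
noncomputable abbrev eq1 (u v : List ℕ) : Bool := eqW TX 14520 B u v

theorem ne0 {u v : List ℕ} (h : neW TX 14400 B u v = true) : ev u ≠ ev v := by
  simp only [neW, band_iff] at h
  exact ne_of_tab inj (lm0.tabs.evalW h.1) (lm0.tabs.evalW h.2.1) (by decide) h.2.2

theorem comm0 {u v : List ℕ} (h : eq0 (u ++ v) (v ++ u) = true) : Commute (ev u) (ev v) := by
  simpa [Commute, SemiconjBy] using lm0.eq h

theorem sq0 {u : List ℕ} (h : eq0 (u ++ u) [] = true) : ev u * ev u = 1 := by simpa using lm0.eq h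

theorem cj0 {u a b : List ℕ} (h : eq0 (u ++ a) (b ++ u) = true) : ev u * ev a * (ev u)⁻¹ = ev b := by
  simpa [mul_inv_eq_iff_eq_mul] using lm0.eq h

theorem cj1 {u a b : List ℕ} (h : band (band (lettersLt 14400 a) (lettersLt 14400 b)) (eq1 (u ++ a) (b ++ u)) = true) :
    cj (w u) (ev a) = ev b := by
  simp only [band_iff] at h
  exact Subtype.ext (by simpa [coe_ev h.1.1, coe_ev h.1.2, mul_inv_eq_iff_eq_mul] using lm.eq h.2)

/-- The word `u` lies in the rotation subgroup and commutes with `v`. -/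
noncomputable def cmB (v u : List ℕ) : Bool := band (lettersLt 14400 u) (eq1 (v ++ u) (u ++ v))

/-- The word `p` is a product of elements of order three commuting with `v`. -/
noncomputable def decB (v p : List ℕ) (ds : List (List ℕ)) : Bool :=
  band (band (eq0 p ds.flatten) (eq0 (p ++ (p ++ (p ++ p))) [])) (allL ds fun u => band (cmB v u) (eq0 (u ++ (u ++ u)) []))

variable {G : Type*} [Group G] {ι ι' : L0 →* G}

theorem Acts.commW {g : G} {v u : List ℕ} (h : Acts ι g (w v)) (h1 : cmB v u = true) : Commute g (ι (ev u)) := by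
  rw [cmB, band_iff] at h1
  exact h.comm (by simpa [coe_ev h1.1] using lm.eq h1.2)

theorem Acts.conjW {g : G} {v : List ℕ} (h : Acts ι g (w v)) (u : List ℕ) {a b : List ℕ}
    (h1 : band (band (lettersLt 14400 u) (band (lettersLt 14400 a) (lettersLt 14400 b)))
      (eq1 (u ++ (a ++ v)) (b ++ (v ++ u))) = true) :
    ι (ev u) * (ι (ev a) * g) * (ι (ev u))⁻¹ = ι (ev b) * g := by
  simp only [band_iff] at h1
  have h2 := lm.eq h1.2
  simp only [evalW_append] at h2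
  have h3 := h.conj_eq (ev u) (b := ev u * (ev a)⁻¹ * (ev u)⁻¹ * ev b) (by
    simp only [coe_mul, coe_inv, coe_ev h1.1.1, coe_ev h1.1.2.1, coe_ev h1.1.2.2, mul_assoc, ← h2]; group)
  simp only [map_mul, map_inv] at h3
  calc _ = ι (ev u) * ι (ev a) * (ι (ev u))⁻¹ * (ι (ev u) * g * (ι (ev u))⁻¹) := by group
    _ = _ := by rw [h3]; group

theorem acts_of_eq {t : G} {v : List ℕ} (h : t = ι (ev v)) (hv : lettersLt 14400 v = true) : Acts ι t (w v) :=
  h ▸ coe_ev hv ▸ acts_self _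

/-- The trace of an element of the first image on the second image. -/
noncomputable def F (ι ι' : L0 →* G) (u : List ℕ) : ℤ := chi ι' (ι (ev u))

/-- Two embeddings with different commuting central involutions. -/
structure Pr (ι ι' : L0 →* G) : Prop where
  e : Emb ι
  e' : Emb ι'
  c : Commute (ι c0) (ι' c0)
  ne : ι c0 ≠ ι' c0

theorem Emb.pr (e : Emb ι) {g y : G} (h : g * ι c0 * g⁻¹ = y) (h1 : Commute (ι c0) y) (h2 : ι c0 ≠ y) :
    Pr ι (E8.cg g ι) := ⟨e, e.cg g, (h ▸ h1 :), (h ▸ h2 :)⟩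

namespace Pr

variable (h : Pr ι ι')
include h

theorem symm : Pr ι' ι := ⟨h.e', h.e, h.c.symm, h.ne.symm⟩

theorem tw (g : W) : Pr (tw ι g) ι' := ⟨h.e.tw g, h.e', by rw [tw_c]; exact h.c, by rw [tw_c]; exact h.ne⟩

theorem types : ∃ g v, Acts (E8.tw ι g) (ι' c0) v ∧
    (v = x 0 ∨ v = ev wa ∨ v = w ws ∨ v = ev wd ∨ v = ev we ∨ v = ev wi) := by
  obtain ⟨u, hu⟩ := h.e.act _ h.c.symm
  have h1 : ¬ Acts ι (ι' c0) 1 := fun h1 => (h.e.uniq _ h1 Emb.zz).elim h.e'.z_ne h.ne.symm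
  rcases classes (h.e.one_or (Emb.zz (ι := ι') ▸ hu.mul hu)) with rfl | rfl | ⟨g, v, h2 | h2, h3⟩
  · exact absurd hu h1
  · exact absurd (c_sq ▸ hu.mul_c) h1
  · exact ⟨g⁻¹, v, acts_tw.2 (by simpa [← h2, mul_assoc] using hu), h3⟩
  · refine ⟨g⁻¹, v, acts_tw.2 ?_, h3⟩
    rw [eq_mul_inv_of_mul_eq h2.symm, inv_eq_of_mul_eq_one_left c_sq, inv_inv, mul_assoc, mul_assoc _ E8.c, ← c_comm]
    simpa [mul_assoc] using hu.mul_c

variable {v : List ℕ} (ha : Acts ι (ι' c0) (w v))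
include ha

theorem mem {p : List ℕ} {ds : List (List ℕ)} (h1 : decB v p ds = true) : ∃ q, ι' q = ι (ev p) := by
  simp only [decB, band_iff, allL_iff] at h1
  refine h.e'.mem_of_nr ?_ (by simpa [← map_pow, pow_succ, mul_assoc] using congrArg ι (lm0.eq h1.1.2))
  rw [show ev p = _ from lm0.eq h1.1.1]
  replace h1 := h1.2
  induction ds with
  | nil => exact ⟨1, 1, acts_one, ⟨1, odd_one, one_pow _⟩, by simp⟩
  | cons u ds ih =>
    rw [List.flatten_cons, evalW_append, map_mul]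
    exact h.e'.nr_mul (h.e'.nr_three (ha.commW (h1 u (by simp)).1).symm
      (by simpa [← map_pow, pow_succ, mul_assoc] using congrArg ι (lm0.eq (h1 u (by simp)).2)))
      (ih fun u hu => h1 u (by simp [hu]))

theorem F_eq (u : List ℕ) {a b : List ℕ} (h1 : band (cmB v u) (eq0 (u ++ a) (b ++ u)) = true) :
    F ι ι' b = F ι ι' a := by
  rw [band_iff] at h1
  rw [F, F, ← cj0 h1.2, map_mul, map_mul, map_inv, h.e'.chi_conj (ha.commW h1.1).symm]

theorem F_neg (ht : ι' c0 = ι (ev v)) (u : List ℕ) {a b : List ℕ}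
    (h1 : band (cmB v u) (eq0 (u ++ (a ++ v)) (b ++ u)) = true) : F ι ι' b = -F ι ι' a := by
  rw [h.F_eq ha u h1, F, ev_append, map_mul, ← ht, h.e'.chi_mul, F]

omit ha in
theorem vals {p : List ℕ} (h1 : ∃ q, ι' q = ι (ev p)) (h2 : band (eq0 (p ++ p) []) (neW TX 14400 B p []) = true)
    (h3 : ι (ev p) ≠ ι' c0) : F ι ι' p = 0 ∨ F ι ι' p = 4 ∨
      F ι ι' p = -4 ∧ ∃ g, ι (ev p) = E8.tw ι' g (ev wa * c0) := by
  obtain ⟨q, hq⟩ := h1
  rw [band_iff] at h2
  rw [F, ← hq, h.e'.chi_self]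
  refine (((tr_cases (h.e'.inj (by rw [map_mul, hq, ← map_mul, sq0 h2.1, map_one, map_one]))).resolve_left
    fun h4 => ne0 h2.2 (h.e.inj (by simp [← hq, h4]))).resolve_left fun h4 => h3 (h4 ▸ hq.symm)).imp_right
    (Or.imp_right (And.imp_right fun ⟨g, hg⟩ => ⟨g, congrArg ι' hg⟩))

omit ha in
theorem lift_comm {a b : List ℕ} {p q : L0} (hp : ι' p = ι (ev a)) (hq : ι' q = ι (ev b))
    (h1 : eq0 (a ++ b) (b ++ a) = true) : Commute (p : W) q :=
  congrArg Subtype.val (h.e'.inj (by rw [map_mul, map_mul, hp, hq, ((comm0 h1).map ι).eq]) : p * q = q * p)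

omit ha in
theorem lift_sq {a : List ℕ} {p : L0} (hp : ι' p = ι (ev a)) (h1 : eq0 (a ++ a) [] = true) : (p : W) * p = 1 :=
  congrArg Subtype.val (h.e'.inj (by rw [map_mul, hp, ← map_mul, sq0 h1, map_one, map_one]) : p * p = 1)

theorem four {ε : ℤ} (hε : ε * ε = 1) {a b c d : List ℕ} (da db dc dd : List (List ℕ))
    (h1 : (allL [(a, da), (b, db), (c, dc), (d, dd)] fun p => band (band (decB v p.1 p.2) (eq0 (p.1 ++ p.1) []))
      (allL [a, b, c, d] fun u => eq0 (p.1 ++ u) (u ++ p.1))) = true) :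
    ∃ r : ℕ, 8 + F ι ι' b + F ι ι' c + F ι ι' (b ++ c) + F ι ι' d + F ι ι' (d ++ b) + F ι ι' (d ++ c) +
      F ι ι' (d ++ (b ++ c)) + ε * (F ι ι' a + F ι ι' (a ++ b) + F ι ι' (a ++ c) + F ι ι' (a ++ (b ++ c)) +
      F ι ι' (a ++ d) + F ι ι' (a ++ (d ++ b)) + F ι ι' (a ++ (d ++ c)) + F ι ι' (a ++ (d ++ (b ++ c)))) = 16 * r := by
  simp only [allL_iff, List.forall_mem_cons, band_iff] at h1
  obtain ⟨⟨⟨a1, a2⟩, -, a3, a4, a5, -⟩, ⟨⟨b1, b2⟩, -, -, b3, -⟩, ⟨⟨c1, c2⟩, -⟩, ⟨⟨d1, d2⟩, -, d3, d4, -⟩, -⟩ := h1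
  obtain ⟨qa, e1⟩ := h.mem ha a1
  obtain ⟨qb, e2⟩ := h.mem ha b1
  obtain ⟨qc, e3⟩ := h.mem ha c1
  obtain ⟨qd, e4⟩ := h.mem ha d1
  simpa only [F, evalW_append, map_mul ι, ← e1, ← e2, ← e3, ← e4, ← map_mul ι', h.e'.chi_self, coe_mul] using
    E8.four hε (h.lift_comm e1 e2 a3) (h.lift_comm e1 e3 a4) (h.lift_comm e1 e4 a5) (h.lift_comm e2 e3 b3)
      (h.lift_comm e4 e2 d3) (h.lift_comm e4 e3 d4) (h.lift_sq e1 a2) (h.lift_sq e2 b2) (h.lift_sq e3 c2)
      (h.lift_sq e4 d2)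

theorem fourI {b c d : List ℕ} (db dc dd : List (List ℕ))
    (h1 : (allL [(b, db), (c, dc), (d, dd)] fun p => band (decB v p.1 p.2)
      (allL [b, c] fun u => band (eq0 (u ++ u) []) (eq0 (p.1 ++ u) (u ++ p.1)))) = true)
    (h2 : eq0 (d ++ d ++ (d ++ d)) [] = true) :
    ∃ r : ℕ, 8 + F ι ι' b + F ι ι' c + F ι ι' (b ++ c) - (F ι ι' (d ++ d) + F ι ι' (d ++ (d ++ b)) +
      F ι ι' (d ++ (d ++ c)) + F ι ι' (d ++ (d ++ (b ++ c)))) = 16 * r := by
  simp only [allL_iff, List.forall_mem_cons, band_iff] at h1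
  obtain ⟨⟨b1, ⟨b2, -⟩, ⟨c2, b3⟩, -⟩, ⟨c1, -⟩, ⟨d1, ⟨-, d3⟩, ⟨-, d4⟩, -⟩, -⟩ := h1
  obtain ⟨qb, e2⟩ := h.mem ha b1
  obtain ⟨qc, e3⟩ := h.mem ha c1
  obtain ⟨qd, e4⟩ := h.mem ha d1
  simpa only [F, evalW_append, map_mul ι, ← e2, ← e3, ← e4, ← map_mul ι', h.e'.chi_self, coe_mul] using
    E8.fourI (h.lift_comm e2 e3 b3) (h.lift_comm e4 e2 d3) (h.lift_comm e4 e3 d4) (h.lift_sq e2 b2) (h.lift_sq e3 c2)
      (h.lift_sq (p := qd * qd) (by rw [ev_append, map_mul, map_mul, e4]) h2)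

end Pr

end Cfsg.Agent.Std.E8
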