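import Mathlib
import Cfsg.Agent.Std.E8P

/-!
There is no pair of embeddings of the double cover of `Ω₈⁺(2)` with different commuting central involutions.
-/

set_option autoImplicit false
set_option maxRecDepth 100000

namespace Cfsg.Agent.Std.E8

open Cfsg Cfsg.Agent.Spor Cfsg.Agent.Spor.FL Subgroup Function

/-- A word. -/
def ib : List ℕ := [14057, 843]

/-- A word. -/
def ic : List ℕ := [13721, 1572]

/-- A word. -/
def ma : List ℕ := [3724]

/-- A word. -/
def mb : List ℕ := [4692]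

/-- A word. -/
def mc : List ℕ := [5780]

/-- A word. -/
def md : List ℕ := [6628]

/-- A word. -/
def da : List ℕ := [14376, 7206]

/-- A word. -/
def db : List ℕ := [241]

/-- A word. -/
def dc : List ℕ := [1209]

/-- A word. -/
def dd : List ℕ := [7206]

/-- A word. -/
def ea : List ℕ := [11580, 3721]

/-- A word. -/
def eb : List ℕ := [3724, 241]

/-- A word. -/
def ec : List ℕ := [7206, 241]

/-- A word. -/
def ed : List ℕ := [482]

/-- A word. -/
def fc1 : List ℕ := [6402]

/-- A word. -/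
def fc2 : List ℕ := [3722]

/-- A word. -/
def fc3 : List ℕ := [13430]

/-- A word. -/
def fs0 : List ℕ := [14286, 481]

/-- A word. -/
def fs1 : List ℕ := [14350, 5161]

/-- A word. -/
def fs2 : List ℕ := [14368, 5161]

/-- A word. -/
def fs3 : List ℕ := [8406, 481]

/-- A word. -/
def fy1 : List ℕ := [14368, 8443, 724]

/-- A word. -/
def fy2 : List ℕ := [14368, 8443, 724]

/-- A word. -/
def y4 : List ℕ := [8462, 3006]


theorem ev_c (u : List ℕ) : ev (u ++ cw) = ev u * c0 := ev_append _ _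

theorem smul_neg' (g : W) (v : Fin 8 → ℤ) : g • -v = -(g • v) := by rw [smul_def, smul_def, Matrix.mulVec_neg]

theorem mem_E {a : L0} : a ∈ E ↔ (a : W) • e 0 = e 0 := Iff.rfl

theorem E_conj {a : L0} (h : a ∈ E) : a * x 0 * (a : W)⁻¹ = x 0 := conj_x (by norm_num) (by norm_num) h

theorem E_comm {a : L0} (h : a ∈ E) : x 0 * a = a * x 0 := (mul_inv_eq_iff_eq_mul.1 (E_conj h)).symm

theorem cj_mem {g : W} (h : g * x 0 * g⁻¹ = x 0) {a : L0} (ha : a ∈ E) : cj g a ∈ E := by
  rw [mem_E, coe_cj, mul_smul, mul_smul]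
  rcases fix_or h with h1 | h1
  · rw [inv_smul_eq_iff.2 h1.symm, mem_E.1 ha, h1]
  · rw [inv_smul_eq_iff.2 (show e 0 = g • -e 0 by rw [smul_neg', h1, neg_neg]), smul_neg', mem_E.1 ha, smul_neg', h1,
      neg_neg]

theorem sq_mem {a : L0} (h : a * x 0 * (a : W)⁻¹ = x 0) : a * a ∈ E := by
  rw [mem_E, coe_mul, mul_smul]
  rcases fix_or h with h1 | h1
  · rw [h1, h1]
  · rw [h1, smul_neg', h1, neg_neg]

theorem ev_mem {u : List ℕ} (h : band (lettersLt 14400 u) (Nat.beq (traceP TX u 0) 0) = true) : ev u ∈ E := by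
  rw [band_iff, nbeq_iff] at h
  have := (lm0.tabs.evalW h.1 0 (by norm_num)).2
  rwa [h.2] at this

variable {G : Type*} [Group G] {ι ι' : L0 →* G}

theorem Emb.five' (e : Emb ι) (e' : Emb ι') {u : G} (h : Acts ι' u (w ws)) {a b : List ℕ}
    (h1 : Commute (ι (ev a)) u) (h2 : Commute (ι (ev a)) (ι' c0)) (h3 : Commute (ι (ev b)) u)
    (h4 : Commute (ι (ev b)) (ι' c0)) (h5 : band (band (eq0 (powW 5 a) []) (eq0 (powW 5 b) []))
      (band (eq0 (powW 2 (a ++ b)) []) (neW TX 14400 B (a ++ b) [])) = true) : False := by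
  simp only [band_iff] at h5
  have key : ∀ {n u}, eq0 (powW n u) [] = true → ι (ev u) ^ n = 1 := fun h => by
    simpa [evalW_powW] using congrArg ι (lm0.eq h)
  exact ne0 h5.2.2 (e.inj (by
    simpa using e'.five h h1 h2 (key h5.1.1) h3 h4 (key h5.1.2) (by simpa using key h5.2.1)))

namespace Pr

variable (h : Pr ι ι')
include h

theorem noI (ha : Acts ι (ι' c0) (w wi)) : False := by
  obtain ⟨r, hr⟩ := h.fourI ha (b := ib) (c := ic) (d := wi) [[14090, 5407], [6410, 2043]] [[12014, 1572], [13721, 2889]]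
    [[13061, 6863], [14376, 6410], [9975, 241]] (by decide +kernel) (by decide +kernel)
  obtain ⟨q, hq⟩ := h.mem ha (p := wi) (ds := [[13061, 6863], [14376, 6410], [9975, 241]]) (by decide +kernel)
  have := h.vals (p := wi ++ wi) ⟨q * q, by rw [ev_append, map_mul, map_mul, hq]⟩ (by decide +kernel)
    (by rw [show ev (wi ++ wi) = c0 from lm0.eq (by decide +kernel)]; exact h.ne)
  have := h.F_eq ha [13406, 7834, 3869] (a := ib) (b := ic) (by decide +kernel)
  have := h.F_eq ha [9677, 9021] (a := ib) (b := ib ++ ic) (by decide +kernel)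
  have := h.F_eq ha [12017, 1683, 241] (a := ib) (b := wi ++ (wi ++ ib)) (by decide +kernel)
  have := h.F_eq ha [10843, 4112] (a := ib) (b := wi ++ (wi ++ ic)) (by decide +kernel)
  have := h.F_eq ha [5564] (a := ib) (b := wi ++ (wi ++ (ib ++ ic))) (by decide +kernel)
  omega

theorem vals' {v : List ℕ} (ht : ι' c0 = ι (ev v)) {p : List ℕ} (ds : List (List ℕ))
    (h1 : band (band (band (lettersLt 14400 v) (decB v p ds)) (neW TX 14400 B p v))
      (band (eq0 (p ++ p) []) (neW TX 14400 B p [])) = true) :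
    F ι ι' p = 0 ∨ F ι ι' p = 4 ∨ F ι ι' p = -4 ∧ ∃ g, ι (ev p) = E8.tw ι' g (ev wa * c0) := by
  rw [band_iff, band_iff, band_iff] at h1
  exact h.vals (h.mem (acts_of_eq ht h1.1.1.1) h1.1.1.2) h1.2 (ht ▸ h.e.inj.ne (ne0 h1.1.2))

theorem noM (ht : ι' c0 = ι (ev wa * c0)) : False := by
  rw [← ev_c] at ht
  have ha := acts_of_eq ht (by decide +kernel)
  obtain ⟨r, hr⟩ := h.four ha (ε := 1) rfl (a := ma) (b := mb) (c := mc) (d := md) [[1564], [6500]] [[8052], [4694]]
    [[7220], [5766]] [[8052], [8068]] (by decide +kernel)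
  have := h.vals' ht (p := ma) [[1564], [6500]] (by decide +kernel)
  have := h.F_eq ha [5654, 241] (a := ma) (b := mb) (by decide +kernel)
  have := h.F_eq ha [4113, 1561] (a := ma) (b := mc) (by decide +kernel)
  have := h.F_eq ha [12031, 3364] (a := ma) (b := md) (by decide +kernel)
  have := h.F_eq ha [11593, 5668] (a := ma) (b := mb ++ mc) (by decide +kernel)
  have := h.F_eq ha [6647] (a := ma) (b := md ++ mb) (by decide +kernel)
  have := h.F_eq ha [14068, 1562] (a := ma) (b := md ++ mc) (by decide +kernel)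
  have := h.F_neg ha ht [14088, 1446] (a := ma) (b := md ++ (mb ++ mc)) (by decide +kernel)
  have := h.F_eq ha [12972, 482] (a := ma) (b := ma ++ mb) (by decide +kernel)
  have := h.F_eq ha [2407] (a := ma) (b := ma ++ mc) (by decide +kernel)
  have := h.F_neg ha ht [13854, 2526] (a := ma) (b := ma ++ (mb ++ mc)) (by decide +kernel)
  have := h.F_eq ha [14215, 241] (a := ma) (b := ma ++ md) (by decide +kernel)
  have := h.F_neg ha ht [12407, 2402] (a := ma) (b := ma ++ (md ++ mb)) (by decide +kernel)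
  have := h.F_neg ha ht [12986, 3005] (a := ma) (b := ma ++ (md ++ mc)) (by decide +kernel)
  have := h.F_neg ha ht [11581, 241] (a := ma) (b := ma ++ (md ++ (mb ++ mc))) (by decide +kernel)
  omega

theorem noD (ht : ι' c0 = ι (ev wd)) : False := by
  have ha := acts_of_eq ht (by decide +kernel)
  obtain ⟨r, hr⟩ := h.four ha (ε := -1) rfl (a := da) (b := db) (c := dc) (d := dd) [[12006], [14107], [8774]] [[2161], [2882]]
    [[1921], [1082]] [[12006], [12420]] (by decide +kernel)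
  have := h.vals' ht (p := da) [[12006], [14107], [8774]] (by decide +kernel)
  have := h.F_neg ha ht [1330] (a := db) (b := db) (by decide +kernel)
  have := h.F_neg ha ht [2050, 722] (a := dc) (b := dc) (by decide +kernel)
  have := h.F_neg ha ht [14233, 1330] (a := db ++ dc) (b := db ++ dc) (by decide +kernel)
  have := h.F_neg ha ht [11537, 723] (a := dd ++ db) (b := dd ++ db) (by decide +kernel)
  have := h.F_neg ha ht [8791, 841] (a := dd ++ dc) (b := dd ++ dc) (by decide +kernel)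
  have := h.F_neg ha ht [5645, 481] (a := dd ++ (db ++ dc)) (b := dd ++ (db ++ dc)) (by decide +kernel)
  have := h.F_neg ha ht [12420, 2890] (a := da ++ db) (b := da ++ db) (by decide +kernel)
  have := h.F_neg ha ht [1689, 481] (a := da ++ dc) (b := da ++ dc) (by decide +kernel)
  have := h.F_neg ha ht [8064, 1207] (a := da ++ (db ++ dc)) (b := da ++ (db ++ dc)) (by decide +kernel)
  have := h.F_eq ha [14220, 841] (a := dd) (b := da ++ dd) (by decide +kernel)
  have := h.F_neg ha ht [2043] (a := da ++ (dd ++ db)) (b := da ++ (dd ++ db)) (by decide +kernel)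
  have := h.F_neg ha ht [13908, 2163] (a := da ++ (dd ++ dc)) (b := da ++ (dd ++ dc)) (by decide +kernel)
  have := h.F_neg ha ht [7231, 1321] (a := da ++ (dd ++ (db ++ dc))) (b := da ++ (dd ++ (db ++ dc))) (by decide +kernel)
  omega

theorem pr {v : List ℕ} (ht : ι' c0 = ι (ev v)) (u p : List ℕ)
    (h1 : band (eq0 (u ++ v) (p ++ u)) (band (eq0 (v ++ p) (p ++ v)) (neW TX 14400 B v p)) = true) :
    Pr ι' (cg (ι (ev u)) ι') ∧ cg (ι (ev u)) ι' c0 = ι (ev p) := by
  simp only [band_iff] at h1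
  have h2 : ι (ev u) * ι' c0 * (ι (ev u))⁻¹ = ι (ev p) := by rw [ht, ← cj0 h1.1, map_mul, map_mul, map_inv]
  exact ⟨h.e'.pr h2 (ht ▸ (comm0 h1.2.1).map ι) (ht ▸ h.e.inj.ne (ne0 h1.2.2)), h2⟩

theorem noE (ht : ι' c0 = ι (ev we)) : False := by
  have ha := acts_of_eq ht (by decide +kernel)
  obtain ⟨r, hr⟩ := h.four ha (ε := -1) rfl (a := ea) (b := eb) (c := ec) (d := ed) [[12433, 3992], [13609, 2056], [1572, 1330]]
    [[4091, 1205], [3860, 1085]] [[12433, 3992], [13714, 2287]] [[4091, 1205], [3140, 603]] (by decide +kernel)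
  have := h.vals' ht (p := ea) [[12433, 3992], [13609, 2056], [1572, 1330]] (by decide +kernel)
  have := h.vals' ht (p := eb) [[4091, 1205], [3860, 1085]] (by decide +kernel)
  have := h.F_eq ha [14300, 602] (a := eb) (b := ec) (by decide +kernel)
  have := h.F_neg ha ht [12775, 3992] (a := ed) (b := ed) (by decide +kernel)
  have := h.F_eq ha [4825, 1330] (a := eb) (b := eb ++ ec) (by decide +kernel)
  have := h.F_neg ha ht [13021, 3266] (a := ed ++ ec) (b := ed ++ ec) (by decide +kernel)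
  have := h.F_neg ha ht [13609, 1572] (a := ed ++ (eb ++ ec)) (b := ed ++ (eb ++ ec)) (by decide +kernel)
  have := h.F_neg ha ht [13834, 2539] (a := eb) (b := ea ++ eb) (by decide +kernel)
  have := h.F_neg ha ht [13722, 3721] (a := eb) (b := ea ++ ec) (by decide +kernel)
  have := h.F_neg ha ht [13821, 2056] (a := eb) (b := ea ++ (eb ++ ec)) (by decide +kernel)
  have := h.F_neg ha ht [13948, 3266] (a := ea ++ ed) (b := ea ++ ed) (by decide +kernel)
  have := h.F_eq ha [13021, 3266] (a := ed ++ eb) (b := ea ++ (ed ++ eb)) (by decide +kernel)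
  have := h.F_neg ha ht [12775, 3266] (a := ea ++ (ed ++ ec)) (b := ea ++ (ed ++ ec)) (by decide +kernel)
  have := h.F_neg ha ht [13722, 1572] (a := ea ++ (ed ++ (eb ++ ec))) (b := ea ++ (ed ++ (eb ++ ec))) (by decide +kernel)
  obtain ⟨-, g, hg⟩ := ((h.vals' ht (p := ea ++ eb) ([[12433, 3992], [13609, 2056], [1572, 1330]] ++ [[4091, 1205], [3860, 1085]])
    (by decide +kernel)).resolve_left (by omega)).resolve_left (by omega)
  obtain ⟨h1, h2⟩ := h.pr ht [12367, 481] (ea ++ eb) (by decide +kernel)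
  exact (h1.tw g).noM (h2.trans hg)

theorem types3 : ∃ g, Acts (E8.tw ι g) (ι' c0) (x 0) ∨ ι' c0 = E8.tw ι g (ev wa) ∨
    Acts (E8.tw ι g) (ι' c0) (w ws) := by
  obtain ⟨g, v, ha, rfl | rfl | rfl | rfl | rfl | rfl⟩ := h.types
  · exact ⟨g, .inl ha⟩
  · exact ⟨g, .inr (.inl (((h.tw g).e.inner ha Emb.zz (sq0 (by decide +kernel))).resolve_right (h.tw g).noM))⟩
  · exact ⟨g, .inr (.inr ha)⟩
  · refine (((h.tw g).e.inner ha Emb.zz (sq0 (by decide +kernel))).elim (h.tw g).noD fun h1 => ?_).elim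
    exact ((h.tw g).tw (w [14505, 7622, 5529])).noD
      (by rw [h1, ← ev_c, ← cj1 (u := [14505, 7622, 5529]) (a := wd) (by decide +kernel)]; rfl)
  · refine (((h.tw g).e.inner ha Emb.zz (sq0 (by decide +kernel))).elim (h.tw g).noE fun h1 => ?_).elim
    exact ((h.tw g).tw (w [12378, 2047])).noE
      (by rw [h1, ← ev_c, ← cj1 (u := [12378, 2047]) (a := we) (by decide +kernel)]; rfl)
  · exact ((h.tw g).noI (coe_ev (u := wi) (by decide) ▸ ha)).elim

theorem noRR (ha : Acts ι (ι' c0) (x 0)) (hb : Acts ι' (ι c0) (x 0)) (hE : ∀ a ∈ E, ι a = ι' a) : False := by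
  rw [← w_x] at ha hb
  have h1 : ∀ {u}, ev u ∈ E → ι' (ev (u ++ cw)) = ι (ev u) * ι' c0 := fun hu => by rw [ev_c, map_mul, hE _ hu]
  have h2 : ∀ {u}, ev u ∈ E → ι' (ev (u ++ cw)) * ι c0 = ι (ev (u ++ cw)) * ι' c0 := fun hu => by
    rw [h1 hu, ev_c, map_mul, mul_assoc, mul_assoc, h.c.eq]
  have a1 := hb.conjW fc3 (a := []) (b := fy1 ++ cw) (by decide +kernel)
  have a2 := ha.conjW fc2 (a := fy1 ++ cw) (b := fy2 ++ cw) (by decide +kernel)
  have a3 := hb.conjW fc1 (a := fy2 ++ cw) (b := []) (by decide +kernel)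
  have b1 := congrArg ι' (cj0 (u := fc3) (a := fs0) (b := fs1 ++ cw) (by decide +kernel))
  have b2 := ha.conjW fc2 (a := fs1) (b := fs2) (by decide +kernel)
  have b3 := congrArg ι' (cj0 (u := fc1) (a := fs2 ++ cw) (b := fs3) (by decide +kernel))
  rw [map_mul, map_mul, map_inv] at b1 b3
  rw [h2 (ev_mem (by decide +kernel)), ← a2, ← h2 (ev_mem (by decide +kernel)), ← a1] at a3
  rw [h1 (ev_mem (by decide +kernel)), ← b2, ← h1 (ev_mem (by decide +kernel)), ← b1,
    ← hE (ev fs0) (ev_mem (by decide +kernel)), ← hE (ev fs3) (ev_mem (by decide +kernel))] at b3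
  simp only [evalW_nil, map_one, one_mul] at a3
  obtain ⟨v, hv⟩ := h.e.act (ι' (ev fc1) * ι (ev fc2) * ι' (ev fc3)) 
    (mul_inv_eq_iff_eq_mul.1 (Eq.trans (by group) a3))
  have h3 : cj v (ev fs0) = ev fs3 := h.e.inj (by rw [← hv, ← b3]; group)
  rw [← cj1 (u := [14478, 8090, 1448]) (a := wd) (by decide +kernel)] at h3
  have h4 := cj1 (u := [14516, 10505, 7468]) (a := fs3) (b := we) (by decide +kernel)
  rw [← h3, ← cj_mul, ← cj_mul, Subtype.ext_iff, coe_cj, coe_ev (by decide), coe_ev (by decide)] at h4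
  exact not_conj _ h4

theorem adjust (ha : Acts ι (ι' c0) (x 0)) (hb : Acts ι' (ι c0) (x 0)) :
    ∃ b ∈ E, ∀ a ∈ E, ι a = E8.tw ι' b a := by
  have h1 : ∀ {a : L0} {v : W}, Acts ι' (ι a) v → v * x 0 * v⁻¹ = x 0 := fun hv =>
    h.e'.conj_eq hv hb (Commute.map (c0_comm _) ι) (by rw [tr_x]; decide)
  let N : Subgroup E := (E.map ι').comap (ι.comp E.subtype)
  have h2 : N.Normal := ⟨fun n ⟨a, h2, h3⟩ g => by
    obtain ⟨v, hv⟩ := h.e'.act _ (ha.comm (E_comm g.2)).symm
    exact ⟨_, cj_mem (h1 hv) h2, by rw [← hv, h3]; simp⟩⟩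
  have h3 := h2.eq_bot_or_eq_top.resolve_left fun h3 => by
    obtain ⟨q, hq⟩ := h.mem (w_x 0 ▸ ha) (p := y4) (ds := [[9549, 3981], [12310, 2540]]) (by decide +kernel)
    have : (⟨ev (y4 ++ y4), ev_mem (by decide +kernel)⟩ : E) ∈ N :=
      ⟨q * q, sq_mem (h1 (hq ▸ acts_self q)), by simp [hq]⟩
    rw [h3, mem_bot, Subtype.ext_iff] at this
    exact ne0 (v := []) (by decide +kernel) this
  have h4 : ∀ a : E, ∃ b : E, ι' b = ι a := fun a => by
    obtain ⟨b, h4, h5⟩ : a ∈ N := h3 ▸ mem_top a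
    exact ⟨⟨b, h4⟩, h5⟩
  choose ψ hψ using h4
  let φ : E →* E := MonoidHom.mk' ψ fun a b => Subtype.ext (h.e'.inj (by simp [hψ]))
  have h5 : Injective φ := fun a b h5 => Subtype.ext (h.e.inj (by rw [← hψ, ← hψ]; exact congrArg (ι' ·.1) h5))
  obtain ⟨b, hb⟩ := inner_E (MulEquiv.ofBijective φ (Finite.injective_iff_bijective.1 h5))
  refine ⟨b, b.2, fun a ha => ?_⟩
  rw [← hψ ⟨a, ha⟩, tw_apply, cj_coe]
  exact congrArg (ι' ·.1) (DFunLike.congr_fun hb ⟨a, ha⟩)

theorem noR (ha : Acts ι (ι' c0) (x 0)) : False := by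
  obtain ⟨g, hb | hb | hb⟩ := h.symm.types3
  · have h1 := (h.symm.tw g).symm
    rw [← tw_c g] at ha
    obtain ⟨b, h2, h3⟩ := h1.adjust ha hb
    exact (h1.symm.tw b).symm.noRR (by rwa [tw_c]) (acts_tw.2 (by rwa [E_conj h2])) h3
  · obtain ⟨q, hq⟩ := (h.symm.tw g).mem (acts_of_eq hb (by decide)) (p := wa ++ cw) (ds := [[13847, 2414], [12775, 6492], [13968, 5647]])
      (by decide +kernel)
    rw [ev_c, map_mul, ← hb, tw_c, ← inv_mul_eq_iff_eq_mul, ← map_inv, ← map_mul] at hq
    have := h.e.sg_eq ha (hq ▸ acts_self _)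
    rw [sg_x, (c0⁻¹ * q).2] at this
    exact absurd this (by decide)
  · rw [← w_x] at ha
    exact h.e.five' (h.e'.tw g) hb (a := [10970, 2537]) (b := [10601, 3257]) (Commute.map (c0_comm _) ι)
      (by rw [tw_c]; exact (ha.commW (by decide +kernel)).symm) (Commute.map (c0_comm _) ι)
      (by rw [tw_c]; exact (ha.commW (by decide +kernel)).symm) (by decide +kernel)

theorem noA (ht : ι' c0 = ι (ev wa)) : False := by
  obtain ⟨h1, h2⟩ := h.pr ht [14176, 1562] [1209] (by decide +kernel)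
  obtain ⟨g, hb | hb | hb⟩ := h1.types3
  · exact (h1.tw g).noR hb
  · obtain ⟨h3, h4⟩ := h.pr ht [14227, 1081] ([1209] ++ wa) (by decide +kernel)
    exact (h3.tw g).noM (by rw [h4, map_mul, ← hb, h2, tw_c, ht, ev_append, map_mul])
  · rw [h2] at hb
    exact h.e.five' (h.e'.tw g) hb (a := [14087, 846]) (b := [14094, 846]) ((comm0 (by decide +kernel)).map ι)
      (by rw [tw_c, ht]; exact (comm0 (by decide +kernel)).map ι) ((comm0 (by decide +kernel)).map ι)
      (by rw [tw_c, ht]; exact (comm0 (by decide +kernel)).map ι) (by decide +kernel)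

theorem noS (ha : Acts ι (ι' c0) (w ws)) : False := by
  have h1 := ha.conjW [12498, 2044] (a := []) (b := [3724, 241]) (by decide +kernel)
  obtain ⟨q, hq⟩ := h.mem ha (p := [3724, 241]) (ds := [[9437, 2163], [11002, 2056]]) (by decide +kernel)
  simp only [evalW_nil, map_one, one_mul] at h1
  have h2 := h.e'.pr h1 ((ha.commW (by decide +kernel)).mul_right (.refl _)) fun h2 =>
    ne0 (u := [3724, 241]) (v := []) (by decide +kernel) (h.e.inj (by simpa using h2))
  obtain ⟨g, hb | hb | hb⟩ := h2.types3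
  · exact (h2.tw g).noR hb
  · exact (h2.tw g).noA hb
  · rw [cg_apply, h1, ← hq, ← map_mul, acts_tw] at hb
    have := h.e'.sg_eq hb (acts_self _)
    rw [(q * c0).2, map_mul, map_mul, mul_right_comm, ← map_mul, mul_inv_cancel, map_one, one_mul, ws,
      sg_odd (by decide)] at this
    exact absurd this (by decide)

theorem false : False := by
  obtain ⟨g, hb | hb | hb⟩ := h.types3
  exacts [(h.tw g).noR hb, (h.tw g).noA hb, (h.tw g).noS hb]

end Pr

end Cfsg.Agent.Std.E8
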