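import Mathlib
import Cfsg.Agent.Std.Basic

/-!
Standard subgroups with a central involution `z` which is not a fourth power, while all other involutions are.
-/

set_option autoImplicit false

namespace Cfsg.Agent.Std

open Cfsg Subgroup

variable {G : Type*} [Group G]

namespace Cyc

variable {A : Subgroup G} {z : G} (h : Cyc A z)
include h

theorem pow_eq_one {a k : G} (ha : a ∈ A) (hk : k ∈ centralizer (A : Set G)) {n : ℕ}
    (e : (a * k) ^ 2 ^ n = 1) : k ^ 2 ^ (n + 1) = 1 := by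
  rw [(show Commute a k from comm ha hk).mul_pow] at e
  rw [pow_succ, pow_mul, pow_two]
  rcases h.inf (k ^ 2 ^ n) (eq_inv_of_mul_eq_one_right e ▸ inv_mem (pow_mem ha _)) (pow_mem hk _) with e | e
  · rw [e, one_mul]
  · rw [e, h.sq]

variable [Finite G]

/-- If `4` divides `|K|`, each `2`-subgroup of `C(z)` centralises a square root of `z`. -/
theorem exists_sq' (h4 : 4 ∣ Nat.card (centralizer (A : Set G))) {U : Subgroup G}
    (hU : IsPGroup 2 U) (hz : ∀ u ∈ U, u * z = z * u) :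
    ∃ r : G, r * r = z ∧ ∀ u ∈ U, r * u = u * r := by
  let P : Subgroup G :=
    { carrier := {k | k ∈ centralizer (A : Set G) ∧ ∃ u ∈ U, u * k⁻¹ ∈ A}
      one_mem' := ⟨one_mem _, 1, one_mem _, by simp⟩
      mul_mem' := by
        rintro k l ⟨hk, u, hu, a⟩ ⟨hl, v, hv, b⟩
        refine ⟨mul_mem hk hl, u * v, mul_mem hu hv, ?_⟩
        have e : u * v * (k * l)⁻¹ = u * k⁻¹ * (v * l⁻¹) := by
          rw [mul_assoc u k⁻¹, ← comm b (inv_mem hk)]; group
        rw [e]; exact mul_mem a b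
      inv_mem' := by
        rintro k ⟨hk, u, hu, a⟩
        refine ⟨inv_mem hk, u⁻¹, inv_mem hu, ?_⟩
        have e : u⁻¹ * k⁻¹⁻¹ = (u * k⁻¹)⁻¹ := by
          have := comm (inv_mem a) hk
          rw [inv_inv, ← mul_right_inj k, ← mul_assoc, ← this]; group
        rw [e]; exact inv_mem a }
  have hP : IsPGroup 2 P := by
    rintro ⟨k, hk, u, hu, a⟩
    obtain ⟨n, hn⟩ := hU ⟨u, hu⟩
    exact ⟨n + 1, Subtype.ext (h.pow_eq_one a hk (by simpa using congrArg Subtype.val hn))⟩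
  obtain ⟨r, hr, hle, ho⟩ := h.exists_gen (P := P) (fun _ hk => hk.1) hP
  have h5 : 2 ≤ (Nat.card (centralizer (A : Set G))).factorization 2 :=
    (Nat.prime_two.pow_dvd_iff_le_factorization Nat.card_pos.ne').1 h4
  obtain ⟨n, hn⟩ := Nat.exists_eq_add_of_le h5
  have h6 : orderOf (r ^ 2 ^ n * r ^ 2 ^ n) = 2 := by
    rw [← pow_add, orderOf_pow_of_dvd (by positivity) (by rw [ho, hn]; exact ⟨2, by ring⟩), ho, hn]
    exact Nat.div_eq_of_eq_mul_left (by positivity) (by ring)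
  refine ⟨r ^ 2 ^ n, ?_, fun u hu => ?_⟩
  · refine (h.eq_of_sq (mul_mem (pow_mem hr _) (pow_mem hr _)) ?_).resolve_left fun e => ?_
    · rw [← pow_two, ← orderOf_dvd_iff_pow_eq_one, h6]
    · rw [e, orderOf_one] at h6; omega
  · obtain ⟨a, ha, k, hk, rfl⟩ := h.exists_mul (hz u hu)
    obtain ⟨m, hm⟩ := hle (show k ∈ P from ⟨hk, _, hu, by simpa using ha⟩)
    have c1 : Commute (r ^ 2 ^ n) a := (comm ha (pow_mem hr _)).symm
    have c2 : Commute (r ^ 2 ^ n) k := hm ▸ ((Commute.refl r).pow_left _).zpow_right m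
    exact c1.mul_right c2

/-- If another conjugate of `z` commutes with `z`, then `4` does not divide `|K|`. -/
theorem not_four_dvd' (hA : ∀ a ∈ A, a ≠ 1 → a ≠ z → a * a = 1 ∨ a * a = z → ∃ U ≤ A,
      IsPGroup 2 U ∧ z ∈ U ∧ (∀ u ∈ U, a * u = u * a) ∧
        ∀ b ∈ A, (∀ u ∈ U, b * u = u * b) → b * b ≠ a ∧ b * b ≠ a * z)
    {g : G} (hc : Commute z (g * z * g⁻¹)) (hne : g * z * g⁻¹ ≠ z) :
    ¬ 4 ∣ Nat.card (centralizer (A : Set G)) := by
  intro h4
  have ht : g * z * g⁻¹ * (g * z * g⁻¹) = 1 := by rw [conj_mul, h.sq]; simp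
  have ht1 : g * z * g⁻¹ ≠ 1 := fun e => h.ne_one (conj_eq_one_iff.1 e)
  obtain ⟨a, ha, k, hk, e⟩ := h.exists_mul hc.symm.eq
  have hK : g * z * g⁻¹ ∉ centralizer (A : Set G) := fun hK => (h.eq_of_sq hK ht).elim ht1 hne
  have h1 : a * a = (k * k)⁻¹ := by
    rw [eq_inv_iff_mul_eq_one, ← ht, e]
    simp only [mul_assoc, mul_right_inj]
    rw [← mul_assoc, ← mul_assoc, comm ha hk]
  obtain ⟨U, hU, u1, u2, u3, u4⟩ := hA a ha (fun e' => hK (by rw [e, e', one_mul]; exact hk))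
    (fun e' => hK (by rw [e, e']; exact mul_mem h.memK hk))
    (h.inf _ (mul_mem ha ha) (h1 ▸ inv_mem (mul_mem hk hk)))
  obtain ⟨r, r1, r2⟩ := h.exists_sq' h4 (U := U.comap (MulAut.conj g).toMonoidHom)
    (u1.comap_of_injective _ (MulAut.conj g).injective)
    (fun u hu => (MulAut.conj g).injective (by
      rw [map_mul, map_mul]
      change g * u * g⁻¹ * (g * z * g⁻¹) = g * z * g⁻¹ * (g * u * g⁻¹)
      have hu' : g * u * g⁻¹ ∈ U := hu
      rw [e, ← mul_assoc, ← u3 _ hu', mul_assoc, comm (hU hu') hk, mul_assoc a k]))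
  have r3 : ∀ u ∈ U, g * r * g⁻¹ * u = u * (g * r * g⁻¹) := fun u hu => by
    have := r2 (g⁻¹ * u * g) (by change g * _ * g⁻¹ ∈ U; simpa [mul_assoc] using hu)
    calc _ = g * (r * (g⁻¹ * u * g)) * g⁻¹ := by group
      _ = _ := by rw [this]; group
  obtain ⟨b, hb, l, hl, e'⟩ := h.exists_mul (r3 z u2)
  have h5 : b * b * (l * l) = a * k := by
    rw [← e, ← r1, ← conj_mul, e']
    simp only [mul_assoc, mul_right_inj]
    rw [← mul_assoc, ← mul_assoc, comm hb hl]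
  have h6 : a⁻¹ * (b * b) = k * (l * l)⁻¹ := by
    rw [inv_mul_eq_iff_eq_mul, ← mul_assoc, ← h5, mul_inv_cancel_right]
  have h7 := u4 b hb fun u hu => by
    have := r3 u hu
    rwa [e', mul_assoc, ← comm (hU hu) hl, ← mul_assoc, ← mul_assoc, mul_left_inj] at this
  rcases h.inf _ (mul_mem (inv_mem ha) (mul_mem hb hb))
    (h6 ▸ mul_mem hk (inv_mem (mul_mem hl hl))) with h8 | h8
  · exact h7.1 (inv_mul_eq_one.1 h8).symm
  · exact h7.2 (inv_mul_eq_iff_eq_mul.1 h8)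

/-- If `4` does not divide `|K|`, all `2`-elements of `C(z)` lie in `A`. -/
theorem mem_of_pow (h4 : ¬ 4 ∣ Nat.card (centralizer (A : Set G))) {x : G} {n : ℕ} (hx : x ^ 2 ^ n = 1)
    (hz : x * z = z * x) : x ∈ A := by
  obtain ⟨a, ha, k, hk, rfl⟩ := h.exists_mul hz
  obtain ⟨j, hj, e⟩ := (Nat.dvd_prime_pow Nat.prime_two).1 (orderOf_dvd_of_pow_eq_one (h.pow_eq_one ha hk hx))
  have h2 : k * k = 1 := by
    rw [← pow_two, ← orderOf_dvd_iff_pow_eq_one, e]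
    rcases j with _ | _ | j
    · norm_num
    · norm_num
    · exact absurd (Dvd.dvd.trans ⟨2 ^ j, by rw [e]; ring⟩ (orderOf_dvd_natCard _ hk)) h4
  rcases h.eq_of_sq hk h2 with rfl | rfl
  · rwa [mul_one]
  · exact mul_mem ha h.memA

/-- The criterion. -/
theorem normal_of_fourth (hO : oddCore G = ⊥) (h3 : ∀ b ∈ A, b ^ 4 ≠ z)
    (h1 : ∀ a ∈ A, a ≠ 1 → a ≠ z → a * a = 1 → (∃ b : G, b ^ 4 = a) ∧ ∃ U ≤ A,
      IsPGroup 2 U ∧ z ∈ U ∧ (∀ u ∈ U, a * u = u * a) ∧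
        ∀ b ∈ A, (∀ u ∈ U, b * u = u * b) → b * b ≠ a ∧ b * b ≠ a * z) : A.Normal := by
  refine h.normal hO fun g hc => by_contra fun hne => ?_
  have ht : g * z * g⁻¹ * (g * z * g⁻¹) = 1 := by rw [conj_mul, h.sq]; simp
  have h4 := h.not_four_dvd' (fun a ha a1 a2 a3 => a3.elim (fun a3 => (h1 a ha a1 a2 a3).2) fun a3 => by
    have : Fact (Nat.Prime 2) := ⟨Nat.prime_two⟩
    refine ⟨zpowers z, zpowers_le.2 h.memA, IsPGroup.of_card (n := 1) (by rw [Nat.card_zpowers, h.ord, pow_one]),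
      mem_zpowers z, fun u hu => comm ha (zpowers_le.2 h.memK hu), fun b hb _ => ⟨fun e => h3 b hb ?_, fun e => h3 b hb ?_⟩⟩
    · rw [show 4 = 2 * 2 from rfl, pow_mul, pow_two, pow_two, e, a3]
    · rw [show 4 = 2 * 2 from rfl, pow_mul, pow_two, pow_two, e, mul_assoc, ← mul_assoc z, ← comm ha h.memK,
        mul_assoc, h.sq, mul_one, a3]) hc hne
  obtain ⟨b, b1⟩ := (h1 _ (h.mem_of_sq h4 ht hc.symm.eq) (fun e => h.ne_one (conj_eq_one_iff.1 e)) hne ht).1
  have e : (g⁻¹ * b * g⁻¹⁻¹) ^ 4 = z := by rw [conj_pow, b1]; group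
  refine h3 _ (h.mem_of_pow h4 (n := 3) ?_ ?_) e
  · rw [show 2 ^ 3 = 4 * 2 from rfl, pow_mul, e, pow_two, h.sq]
  · rw [← e]; exact (Commute.self_pow _ 4).eq

end Cyc

end Cfsg.Agent.Std
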