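import Mathlib
import Cfsg.Agent.Std.Co0F
import Cfsg.Agent.Std.Basic

/-!
A standard subgroup isomorphic to `Co0` whose centraliser has cyclic Sylow `2`-subgroups.
-/

set_option autoImplicit false

namespace Cfsg.Agent.Std

open Cfsg Cfsg.Agent.Spor Cfsg.Agent.Spor.MB Cfsg.Agent.Spor.Leech Cfsg.Agent.Spor.MT Subgroup
open scoped Pointwise symmDiff

variable {G : Type*} [Group G] {ι : Co0 →* G}

theorem sign_perm_conj (c : Finset GolayPt) (hc : IsCode c) (σ : M24) (d : Finset GolayPt)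
    (hd : IsCode d) : sign c hc * perm σ * sign d hd * (sign c hc * perm σ)⁻¹ =
      sign (σ.1 • d) (hd.smul σ.2) := by
  rw [mul_inv_eq_iff_eq_mul, mul_assoc, perm_mul_sign, ← mul_assoc, sign_comm hc, mul_assoc]

theorem eq_of_smul_code {σ : PG} (h : ∀ c, IsCode c → σ • c = c) : σ = 1 := by
  ext p
  by_contra hne
  obtain ⟨c, hc, h1, h2⟩ := exists_code_mem_not_mem (i := p) (j := σ p) fun e => hne (by rw [← e]; rfl)
  exact h2 (h c hc ▸ Finset.smul_mem_smul_finset h1)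

section Module

variable (hι : Function.Injective ι)
  (hC : ∀ x : G, x * ι negOne = ι negOne * x → ∃ a : Co0, ∀ b, x * ι b * x⁻¹ = ι (a * b * a⁻¹))
include hι hC

omit hC in
theorem exists_tr {h : G} (hh : h ∈ normalizer (Sgn.map ι : Set G)) :
    ∃ f : Finset GolayPt → Finset GolayPt, ∃ hf : ∀ c, IsCode c → IsCode (f c),
      (∀ c hc, h * ι (sign c hc) * h⁻¹ = ι (sign (f c) (hf c hc))) ∧
      (∀ c d, IsCode c → IsCode d → f c = f d → c = d) ∧
      (∀ c d, IsCode c → IsCode d → f (c ∆ d) = f c ∆ f d) ∧ ∀ d, IsCode d → ∃ c, IsCode c ∧ f c = d := by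
  have h1 : ∀ c, ∃ d, ∀ hc : IsCode c, ∃ hd : IsCode d, h * ι (sign c hc) * h⁻¹ = ι (sign d hd) := by
    intro c
    by_cases hc : IsCode c
    · obtain ⟨_, ⟨d, hd, rfl⟩, e⟩ := (mem_normalizer_iff.1 hh _).1 ⟨_, ⟨c, hc, rfl⟩, rfl⟩
      exact ⟨d, fun _ => ⟨hd, e.symm⟩⟩
    · exact ⟨∅, fun a => absurd a hc⟩
  choose f hf e using h1
  refine ⟨f, hf, e, fun c d hc hd a => ?_, fun c d hc hd => ?_, fun d hd => ?_⟩
  · have := (e c hc).trans ((congrArg ι (sign_congr _ a)).trans (e d hd).symm)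
    exact sign_inj (hι (by simpa using this))
  · refine sign_inj (hc := hf _ (hc.symmDiff hd)) (hd := (hf c hc).symmDiff (hf d hd)) (hι ?_)
    rw [← e _ (hc.symmDiff hd), ← sign_mul_sign hc hd, ← sign_mul_sign (hf c hc) (hf d hd), map_mul, map_mul, ← e, ← e,
      conj_mul]
  · obtain ⟨_, ⟨c, hc, rfl⟩, a⟩ := (mem_normalizer_iff''.1 hh _).1 ⟨_, ⟨d, hd, rfl⟩, rfl⟩
    refine ⟨c, hc, sign_inj (hc := hf c hc) (hd := hd) (hι ?_)⟩
    rw [← e c hc, a]; group

theorem exists_perm {x : G} (hx : x ∈ normalizer (Sgn.map ι : Set G))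
    (hz : x * ι negOne = ι negOne * x) :
    ∃ σ : M24, ∀ c hc, x * ι (sign c hc) * x⁻¹ = ι (sign (σ.1 • c) (hc.smul σ.2)) := by
  obtain ⟨a, ha⟩ := hC x hz
  obtain ⟨d, hd, σ, e⟩ := inv_mem_iff.1 (mem_Mon_of_norm (g := a⁻¹) fun s hs => by
    obtain ⟨t, ht, e⟩ := (mem_normalizer_iff.1 hx _).1 ⟨s, hs, rfl⟩
    rw [ha] at e
    rw [inv_inv, ← hι e]; exact ht)
  exact ⟨σ, fun c hc => by rw [ha, e, sign_perm_conj]⟩

omit hι hC in
theorem perm_mem_normalizer (σ : M24) : ι (perm σ) ∈ normalizer (Sgn.map ι : Set G) := by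
  refine le_normalizer_map _ ⟨perm σ, mem_normalizer_iff.2 fun s => ⟨conj_mem_Sgn (perm_mem_Mon σ),
    fun hs => ?_⟩, rfl⟩
  have := conj_mem_Sgn (inv_mem (perm_mem_Mon σ)) hs
  simpa [mul_assoc] using this

theorem not_octad {o : Finset GolayPt} (ho : IsCode o) (h8 : o.card = 8 ∨ o.card = 16) {h : G}
    (hh : h ∈ normalizer (Sgn.map ι : Set G)) : h * ι (sign o ho) * h⁻¹ ≠ ι negOne := by
  intro e
  obtain ⟨m, hm, m2, hlt, d, hd, hdo⟩ := exists_comm_octad ho h8
  obtain ⟨f, hf, f1, f2, f3, f4⟩ := exists_tr hι hh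
  have hmo : m • o = o := by rw [← hdo, smul_symmDiff, ← mul_smul, m2, one_smul, symmDiff_comm]
  obtain ⟨σ, hσ⟩ := exists_perm hι hC (x := h * ι (perm ⟨m, hm⟩) * h⁻¹)
    (mul_mem (mul_mem hh (perm_mem_normalizer _)) (inv_mem hh)) (by
      rw [← e, conj_mul, conj_mul, ← map_mul, ← map_mul, perm_mul_sign, sign_congr _ hmo])
  have key : ∀ c, IsCode c → σ.1 • f c = f (m • c) := fun c hc => by
    refine sign_inj (hc := (hf c hc).smul σ.2) (hd := hf _ (hc.smul hm)) (hι ?_)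
    rw [← hσ _ (hf c hc), ← f1 c hc, ← f1 _ (hc.smul hm), ← perm_conj_sign ⟨m, hm⟩ c hc, map_mul,
      map_mul, map_inv]
    group
  have hu : f o = Finset.univ := sign_inj (hι ((f1 o ho).symm.trans e))
  have h2 : σ.1 * σ.1 = 1 := eq_of_smul_code fun c hc => by
    obtain ⟨b, hb, rfl⟩ := f4 c hc
    rw [mul_smul, key b hb, key _ (hb.smul hm), ← mul_smul, m2, one_smul]
  have h3 : ∀ p, σ.1 p ≠ p := fun p hp => by
    have h4 : p ∈ f d ∆ (σ.1 • f d) := by
      rw [key d hd, ← f3 _ _ hd (IsCode.smul hm hd), hdo, hu]; exact Finset.mem_univ _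
    have h7 : p ∈ σ.1 • f d ↔ p ∈ f d := by
      conv_lhs => rw [← hp]
      exact Finset.smul_mem_smul_finset_iff σ.1
    rw [Finset.mem_symmDiff, h7] at h4
    tauto
  have h5 := Set.ncard_le_ncard_of_injOn (s := FixC m) (t := FixC σ.1) f
    (fun c hc => ⟨hf c hc.1, by rw [key c hc.1, hc.2]⟩) (fun a ha b hb => f2 a b ha.1 hb.1)
    (Set.toFinite _)
  have := ncard_FixC_le_64 σ.2 h2 h3
  omega

/-- The normaliser of the group of sign changes centralises the central involution. -/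
theorem eq_univ_of_conj {c : Finset GolayPt} (hc : IsCode c) {h : G}
    (hh : h ∈ normalizer (Sgn.map ι : Set G)) (e : h * ι (sign c hc) * h⁻¹ = ι negOne) :
    c = Finset.univ := by
  have hn : ι negOne ≠ 1 := fun a => negOne_ne_one (hι (a.trans (map_one ι).symm))
  rcases hc.card_cases with h0 | h0 | h0 | h0 | h0
  · obtain rfl := Finset.card_eq_zero.1 h0
    rw [sign_empty, map_one, mul_one, mul_inv_cancel] at e
    exact absurd e.symm hn
  · exact absurd e (not_octad hι hC hc (Or.inl h0) hh)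
  · exfalso
    obtain ⟨o, ho, ho'⟩ := exists_octad_dodecad (d := c) ⟨hc, h0⟩
    obtain ⟨f, hf, f1, f2, f3, -⟩ := exists_tr hι hh
    have horb : ∀ d (hd : d ∈ dodecads), ∃ k ∈ normalizer (Sgn.map ι : Set G),
        k * ι (sign d hd.1) * k⁻¹ = ι negOne := fun d hd => by
      obtain ⟨k, hk, a⟩ := Golay.exists_smul_dodecad_eq hd (d' := c) ⟨hc, h0⟩
      refine ⟨h * ι (perm ⟨k, hk⟩), mul_mem hh (perm_mem_normalizer _), ?_⟩
      rw [← e, ← sign_congr (IsCode.smul hk hd.1) a, ← perm_conj_sign ⟨k, hk⟩ d hd.1, map_mul, map_mul,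
        map_inv]
      group
    have hu : f c = Finset.univ := sign_inj (hι ((f1 c hc).symm.trans e))
    have h1 : f o = (f (c ∆ o))ᶜ := by
      rw [f3 _ _ hc ho.1, hu]; ext p; simp
    have h2 : (f (c ∆ o)).card = 12 := by
      obtain ⟨k, hk, a⟩ := horb _ ho'
      have b : k * h⁻¹ * ι (sign _ (hf _ ho'.1)) * (k * h⁻¹)⁻¹ = ι negOne := by
        rw [← f1 _ ho'.1, ← a]; group
      rcases (hf _ ho'.1).card_cases with h3 | h3 | h3 | h3 | h3
      · rw [sign_congr _ (Finset.card_eq_zero.1 h3), sign_empty, map_one, mul_one,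
          mul_inv_cancel] at b
        exact absurd b.symm hn
      · exact absurd b (not_octad hι hC _ (Or.inl h3) (mul_mem hk (inv_mem hh)))
      · exact h3
      · exact absurd b (not_octad hι hC _ (Or.inr h3) (mul_mem hk (inv_mem hh)))
      · have h4 := f2 _ _ ho'.1 hc ((Finset.eq_univ_of_card _ (by rw [h3]; rfl)).trans hu.symm)
        have h5 := ho.2
        rw [symmDiff_eq_left.1 h4] at h5
        simp at h5
    obtain ⟨k, hk, a⟩ := horb (f o) ⟨hf _ ho.1, by rw [h1, MB.card_compl, h2]⟩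
    exact not_octad hι hC ho.1 (Or.inl ho.2) (mul_mem hk hh) (by rw [← a, ← f1 _ ho.1]; group)
  · exact absurd e (not_octad hι hC hc (Or.inr h0) hh)
  · exact Finset.eq_univ_of_card _ (by rw [h0]; rfl)

end Module

/-- The main theorem, given that every automorphism of `Co0` is inner. -/
theorem normal_of_Co0 [Finite G] (hinn : ∀ φ : Co0 ≃* Co0, ∃ a, ∀ b, φ b = a * b * a⁻¹)
    (hO : oddCore G = ⊥) (hι : Function.Injective ι) (hA : IsStandardSubgroup ι.range)
    (hR : ∀ R : Sylow 2 (centralizer (ι.range : Set G)),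
      IsCyclic (R : Subgroup (centralizer (ι.range : Set G)))) : ι.range.Normal := by
  have hN : ∀ x ∈ normalizer (ι.range : Set G), ∃ a : Co0, ∀ b, x * ι b * x⁻¹ = ι (a * b * a⁻¹) := by
    intro x hx
    let e := MonoidHom.ofInjective hι
    obtain ⟨a, ha⟩ := hinn (e.trans ((ι.range.normalizerMonoidHom ⟨x, hx⟩).trans e.symm))
    refine ⟨a, fun b => ?_⟩
    rw [← ha]
    exact (congrArg Subtype.val (e.apply_symm_apply
      (ι.range.normalizerMonoidHom ⟨x, hx⟩ (e b)))).symm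
  have hK : ι negOne ∈ centralizer (ι.range : Set G) := by
    rintro _ ⟨b, rfl⟩
    rw [← map_mul, ← map_mul, negOne_comm]
  have h : Cyc ι.range (ι negOne) :=
    { std := hA
      cyc := hR
      ord := by rw [orderOf_injective ι hι]; exact orderOf_eq_two negOne_mul_self negOne_ne_one
      memA := ⟨_, rfl⟩
      memK := hK
      inf := by
        rintro _ ⟨a, rfl⟩ ha
        rcases (Leech.mem_center_iff (g := a)).1 (Subgroup.mem_center_iff.2 fun b => hι (by
          rw [map_mul, map_mul]; exact ha _ ⟨b, rfl⟩)) with rfl | rfl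
        exacts [Or.inl (map_one ι), Or.inr rfl]
      norm := fun x hx => by
        obtain ⟨a, ha⟩ := hN x hx
        refine ⟨ι a, ⟨a, rfl⟩, (ι a)⁻¹ * x, ?_, by group⟩
        rintro _ ⟨b, rfl⟩
        have := ha b
        rw [map_mul, map_mul, map_inv] at this
        calc _ = (ι a)⁻¹ * (ι a * ι b * (ι a)⁻¹) * x := by group
          _ = _ := by rw [← this]; group }
  refine h.normal hO fun g hc => by_contra fun hne => ?_
  have h4 := h.not_four_dvd (by
    rintro _ ⟨a, rfl⟩ a1 a2 a3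
    obtain ⟨U, u1, u2, u3, u4⟩ := exists_two_subgroup (a := a) (fun e => a1 (by rw [e, map_one]))
      (fun e => a2 (by rw [e])) (a3.imp (fun e => hι (by rw [map_mul, e, map_one]))
        fun e => hι (by rw [map_mul, e]))
    refine ⟨U.map ι, map_le_range _ _, ?_, ⟨_, u2, rfl⟩, ?_, ?_⟩
    · rintro _ ⟨u, hu, rfl⟩; rw [← map_mul, u1 u hu, map_one]
    · rintro _ ⟨u, hu, rfl⟩; rw [← map_mul, u3 u hu, map_mul]
    · rintro _ ⟨b, rfl⟩ hb
      have := u4 b fun u hu => hι (by rw [map_mul, map_mul]; exact hb _ ⟨u, hu, rfl⟩)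
      exact ⟨fun e => this.1 (hι (by rw [map_mul, e])), fun e => this.2 (hι (by rw [map_mul, e, map_mul]))⟩)
    hc hne
  obtain ⟨t, ht⟩ := h.mem_of_sq h4 (x := g * ι negOne * g⁻¹) (by rw [conj_mul, h.sq]; simp) hc.symm.eq
  obtain ⟨k, c, hc', e⟩ := exists_conj_mem_Sgn (g := t)
    (hι (by rw [map_mul, ht, conj_mul, h.sq, map_one]; simp))
  have e1 : ι k * g * ι negOne * (ι k * g)⁻¹ = ι (sign c hc') := by
    rw [← e, map_mul, map_mul, map_inv, ht]; group
  have hcu : c ≠ Finset.univ := by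
    rintro rfl
    have : k * t * k⁻¹ = k * negOne * k⁻¹ := by rw [e, negOne_comm, mul_inv_cancel_right]; rfl
    rw [mul_left_inj, mul_right_inj] at this
    exact hne (by rw [← ht, this])
  generalize ι k * g = y at e1
  let F : Subgroup Co0 := (((Sgn.map ι).comap (MulAut.conj y).toMonoidHom)).comap ι
  have hF : ∀ s ∈ Sgn, ∃ x ∈ F, ι x = y⁻¹ * ι s * y := fun s hs => by
    obtain ⟨x, hx⟩ := h.mem_of_sq h4 (x := y⁻¹ * ι s * y) (by
      rw [show y⁻¹ * ι s * y * (y⁻¹ * ι s * y) = y⁻¹ * ι (s * s) * y by rw [map_mul]; group,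
        mul_self_Sgn hs, map_one]; simp) (by
      have := congrArg ι (mul_comm_Sgn hs ⟨c, hc', rfl⟩)
      rw [map_mul, map_mul, ← e1] at this
      calc _ = y⁻¹ * (ι s * (y * ι negOne * y⁻¹)) * y := by group
        _ = _ := by rw [this]; group)
    exact ⟨x, ⟨s, hs, by change _ = y * ι x * y⁻¹; rw [hx]; group⟩, hx⟩
  have hF2 : ∀ x ∈ F, x * x = 1 := by
    rintro x ⟨s, hs, a⟩
    refine hι ((MulAut.conj y).injective ?_)
    change ι s = MulAut.conj y (ι x) at a
    rw [map_mul, map_mul, ← a, ← map_mul, mul_self_Sgn hs, map_one, map_one]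
  have hFc : Nat.card F = 4096 := by
    rw [← card_Sgn]
    choose f hf hf' using fun x : F => (show ∃ s ∈ Sgn, ι s = y * ι x.1 * y⁻¹ from x.2)
    refine Nat.card_eq_of_bijective (fun x => ⟨f x, hf x⟩) ⟨fun a b e => ?_, fun s => ?_⟩
    · have : f a = f b := congrArg Subtype.val e
      exact Subtype.ext (hι (by simpa using (hf' a).symm.trans ((congrArg ι this).trans (hf' b))))
    · obtain ⟨x, hx, a⟩ := hF s.1 s.2
      exact ⟨⟨x, hx⟩, Subtype.ext (hι (by rw [hf', a]; group))⟩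
  obtain ⟨b, hb⟩ := exists_conj_le_Mon (isPGroup_of_sq hF2)
  have hE : F.map (MulAut.conj b).toMonoidHom = Sgn := by
    refine eq_Sgn ?_ ?_ (by rw [card_map_of_injective (MulAut.conj b).injective, hFc])
    · rintro _ ⟨x, hx, rfl⟩; exact hb x hx
    · rintro _ ⟨x, hx, rfl⟩; rw [← map_mul, hF2 x hx, map_one]
  refine hcu (eq_univ_of_conj hι (fun x hx => hN x (hA.centralizer_le h.ord hK
    (mem_centralizer_singleton_iff.2 hx))) hc' (h := ι b * y⁻¹) ?_ ?_)
  · refine mem_normalizer_fintype ?_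
    rintro _ ⟨s, hs, rfl⟩
    obtain ⟨x, hx, a⟩ := hF s hs
    refine ⟨b * x * b⁻¹, hE ▸ ⟨x, hx, rfl⟩, ?_⟩
    rw [map_mul, map_mul, map_inv, a]; group
  · rw [← e1, show ι b * y⁻¹ * (y * ι negOne * y⁻¹) * (ι b * y⁻¹)⁻¹ = ι b * ι negOne * (ι b)⁻¹ by group,
      ← map_mul, negOne_comm, map_mul, mul_inv_cancel_right]

end Cfsg.Agent.Std
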