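import Mathlib
import Cfsg.Agent.Std.Basic2
import Cfsg.Agent.Ch.UniversalCover

/-!
Standard subgroups which are double covers of a group without outer automorphisms.
-/

set_option autoImplicit false

namespace Cfsg.Agent.Std

open Cfsg Subgroup

theorem inner_of_out {A Q : Type*} [Group A] [Group Q] [Group.IsPerfect A] (e : A ⧸ center A ≃* Q)
    (h : Nat.card (Out Q) = 1) (φ : A ≃* A) : ∃ a, ∀ b, φ b = a * b * a⁻¹ := by
  have hc : (center A).map (φ : A →* A) = center A := characteristic_iff_map_eq.1 inferInstance φ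
  have h1 : Subsingleton (Out Q) := (Nat.card_eq_one_iff_unique.1 h).1
  obtain ⟨x, hx⟩ : (e.symm.trans ((QuotientGroup.congr _ _ φ hc).trans e) : MulAut Q) ∈ Inn Q :=
    (QuotientGroup.eq_one_iff _).1 (Subsingleton.elim _ _)
  obtain ⟨x, rfl⟩ := e.surjective x
  obtain ⟨a, rfl⟩ := QuotientGroup.mk_surjective x
  refine ⟨a, fun b => DFunLike.congr_fun (Ch.lift_unique_of_isPerfect (ξ := QuotientGroup.mk' (center A))
    (η₁ := (φ : A →* A)) (η₂ := (MulAut.conj a : A →* A)) (QuotientGroup.ker_mk' _).le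
    (MonoidHom.ext fun c => e.injective ?_)) b⟩
  simpa using (DFunLike.congr_fun hx (e c)).symm

theorem exists_cyc {G : Type*} [Group G] {A : Subgroup G} (hA : IsStandardSubgroup A)
    (hR : ∀ R : Sylow 2 (centralizer (A : Set G)), IsCyclic (R : Subgroup (centralizer (A : Set G))))
    (hZ : Nat.card (center A) = 2) (hinn : ∀ φ : A ≃* A, ∃ a, ∀ b, φ b = a * b * a⁻¹) :
    ∃ z : A, Cyc A z ∧ ∀ x, x ∈ center A ↔ x = 1 ∨ x = z := by
  obtain ⟨z, hz, hu⟩ := (Nat.card_eq_two_iff' (1 : center A)).1 hZ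
  have h1 : ∀ x, x ∈ center A ↔ x = 1 ∨ x = z := fun x => ⟨fun hx => by
    by_cases e : x = 1
    · exact Or.inl e
    · exact Or.inr (congrArg Subtype.val (hu ⟨x, hx⟩ fun e' => e (congrArg Subtype.val e'))), by
    rintro (rfl | rfl)
    exacts [one_mem _, z.2]⟩
  refine ⟨z, ⟨hA, hR, ?_, z.1.2, fun b hb => congrArg Subtype.val (mem_center_iff.1 z.2 ⟨b, hb⟩),
    fun x hx hk => ?_, fun x hx => ?_⟩, h1⟩
  · have : Finite (center A) := Nat.finite_of_card_ne_zero (by omega)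
    rw [orderOf_coe, orderOf_coe]
    exact ((Nat.dvd_prime Nat.prime_two).1 (hZ ▸ orderOf_dvd_natCard z)).resolve_left fun e => hz (orderOf_eq_one_iff.1 e)
  · exact ((h1 ⟨x, hx⟩).1 (mem_center_iff.2 fun b => Subtype.ext (hk b b.2))).imp (congrArg Subtype.val)
      (congrArg Subtype.val)
  · obtain ⟨a, ha⟩ := hinn (A.normalizerMonoidHom ⟨x, hx⟩)
    refine ⟨a, a.2, (a : G)⁻¹ * x, fun b hb => ?_, by group⟩
    have : x * b * x⁻¹ = a * b * (a : G)⁻¹ := congrArg Subtype.val (ha ⟨b, hb⟩)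
    calc _ = (a : G)⁻¹ * (a * b * (a : G)⁻¹) * x := by group
      _ = _ := by rw [← this]; group

end Cfsg.Agent.Std
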