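import Mathlib
import Cfsg.Agent.HeS.Int

/-!
Computations in the Sylow 2-subgroup `P` of `2².L₃(4)`.
-/

set_option autoImplicit false
set_option synthInstance.maxSize 1000000
set_option synthInstance.maxHeartbeats 1000000
set_option maxRecDepth 100000

namespace Cfsg.Agent.HeA

open Cfsg.Agent.Spor Cfsg.Agent.Rec Cfsg.Agent.Rec.L52 Cfsg.Agent.Inv.Fz Cfsg.Agent.UT Cfsg.Agent.HeS Subgroup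

universe u

/-- Letters for `P`. -/
abbrev Lt (G : Type u) [Group G] : Type u := HeS.Let G

namespace Lt

variable {G : Type u} [Group G] (t : Lt G)

/-- Representatives for the involutions of `P / Z`. -/
def X : Set G := (t.A0 : Set G) ∪ t.B0
/-- The first generator of `V`. -/
def v1 : G := t.x14 * t.x25
/-- The second generator of `V`. -/
def v2 : G := t.x14 * t.z * t.x24

theorem lx : t.C.ListsL [P8_t.dom, R1_t.dom, R2_t.dom, E_t.dom, DA_t.dom, A0_t.dom, B0_t.dom, A0_t.dom.union B0_t.dom]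
    [t.P, t.E1, t.E2, t.Z, t.V, t.A0, t.B0, t.X] :=
  t.genP.1.cons <| t.genE1.1.cons <| t.genE2.1.cons <| t.genZ.1.cons <| t.genV.1.cons <| t.genA0.1.cons <|
    t.genB0.1.cons <| (t.genA0.1.union t.genB0.1).cons Cod.listsL_nil

theorem hc : t.x14 = t.x34 * t.x13 * t.x34 * t.x13 ∧ t.z = t.x35 * t.x13 * t.x35 * t.x13 ∧
    t.x24 = t.x34 * t.x23 * t.x34 * t.x23 ∧ t.x25 = t.x35 * t.x23 * t.x35 * t.x23 :=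
  t.lx.decide t.rep (by decide +kernel)

theorem hle : t.V ≤ t.Z ∧ t.Z ≤ t.E1 ∧ t.Z ≤ t.E2 ∧ t.E1 ≤ t.P ∧ t.E2 ≤ t.P ∧ t.A0 ≤ t.E1 ∧ t.B0 ≤ t.E2 ∧
    ∀ x ∈ t.X, x ∈ t.P := t.lx.decide t.rep (by decide +kernel)

theorem VZ : t.V ≤ t.Z := t.hle.1
theorem ZP : t.Z ≤ t.P := t.hle.2.1.trans t.hle.2.2.2.1
theorem Zc : ∀ y ∈ t.Z, ∀ p ∈ t.P, p * y = y * p := t.lx.decide t.rep (by decide +kernel)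
theorem Zs : ∀ y ∈ t.Z, y * y = 1 := t.lx.decide t.rep (by decide +kernel)
theorem Ps : ∀ p ∈ t.P, p * p ∈ t.Z := t.lx.decide t.rep (by decide +kernel)
theorem E1c : ∀ x ∈ t.E1, x * x = 1 ∧ ∀ y ∈ t.E1, x * y = y * x := t.lx.decide t.rep (by decide +kernel)
theorem E2c : ∀ x ∈ t.E2, x * x = 1 ∧ ∀ y ∈ t.E2, x * y = y * x := t.lx.decide t.rep (by decide +kernel)

theorem hv : t.v1 ∈ t.V ∧ t.v2 ∈ t.V ∧ t.v1 ≠ 1 ∧ t.v2 ≠ 1 ∧ t.v1 * t.v2 ≠ 1 ∧ t.v1 ≠ t.v2 := by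
  unfold v1 v2
  exact t.lx.decide t.rep (by decide +kernel)

theorem hl : (t.x13 ∈ t.A0 ∧ t.x23 ∈ t.A0 ∧ t.x34 ∈ t.B0 ∧ t.x35 ∈ t.B0) ∧
    (t.x13 ∉ t.Z ∧ t.x23 ∉ t.Z ∧ t.x13 * t.x23 ∉ t.Z ∧ t.x34 ∉ t.Z ∧ t.x35 ∉ t.Z) ∧ t.z ∈ t.Z ∧ t.z ∉ t.V ∧
    (t.x13 ≠ 1 ∧ t.x23 ≠ 1 ∧ t.x13 * t.x23 ≠ 1 ∧ t.x34 ≠ 1 ∧ t.x35 ≠ 1 ∧ t.x34 * t.x35 ≠ 1) ∧
    t.x34 * t.x13 ≠ t.x13 * t.x34 := t.lx.decide t.rep (by decide +kernel)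

theorem klein : ∀ w ∈ t.V, ∀ w' ∈ t.V, w ≠ 1 → w' ≠ 1 → w ≠ w' → ∀ y ∈ t.V, y = 1 ∨ y = w ∨ y = w' ∨ y = w * w' :=
  t.lx.decide t.rep (by decide +kernel)

theorem red : ∀ q ∈ t.P, q * q ∈ t.V → ∃ α ∈ t.X, ∃ ζ ∈ t.Z, q = α * ζ := t.lx.decide t.rep (by decide +kernel)

theorem cm : ∀ α ∈ t.X, ∀ β ∈ t.X, ∀ ζ ∈ t.Z, ∀ ξ ∈ t.Z,
    β * ξ * (α * ζ) * (β * ξ) * (α * ζ) = β * α * β * α := t.lx.decide t.rep (by decide +kernel)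

theorem rigid : ∀ α1 ∈ t.X, ∀ β1 ∈ t.X, Rec.Let (β1 * α1 * β1 * α1) fun c11 => c11 * t.x14 ∈ t.V → ∀ α2 ∈ t.X,
    Rec.Let (β1 * α2 * β1 * α2) fun c21 => c21 * t.x24 ∈ t.V → ∀ β2 ∈ t.X, Rec.Let (β2 * α1 * β2 * α1) fun c12 =>
      Rec.Let (β2 * α2 * β2 * α2) fun c22 => c12 * t.z ∈ t.V → c11 * c22 = t.x14 * t.x25 →
        c11 * c12 * c21 = t.x14 * t.z * t.x24 → α1 = t.x13 ∧ α2 = t.x23 ∧ β1 = t.x34 ∧ β2 = t.x35 :=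
  t.lx.decide t.rep (by decide +kernel)

theorem nc : ∀ p ∈ t.P, p ∉ t.Z → ∃ u ∈ t.X, ∃ u' ∈ t.X, Rec.Let (u * p * u⁻¹ * p⁻¹) fun w =>
    Rec.Let (u' * p * u'⁻¹ * p⁻¹) fun w' => w ∈ t.Z ∧ w' ∈ t.Z ∧ w ≠ 1 ∧ w' ≠ 1 ∧ w ≠ w' :=
  t.lx.decide t.rep (by decide +kernel)

theorem cov : ∀ y1 ∈ t.Z, y1 ∉ t.V → ∀ y2 ∈ t.Z, y2 ∉ t.V → y1 * y2 ∉ t.V →
    ∀ y ∈ t.Z, y ∈ t.V ∨ y * y1 ∈ t.V ∨ y * y2 ∈ t.V ∨ y * (y1 * y2) ∈ t.V := t.lx.decide t.rep (by decide +kernel)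

theorem ab : ∀ p ∈ t.P, p ∉ t.Z → ∀ α ∈ t.X, p * α * p⁻¹ * α⁻¹ ∈ t.V → ∀ β ∈ t.X, p * β * p⁻¹ * β⁻¹ ∈ t.V →
    β * α * β * α ∈ t.V := t.lx.decide t.rep (by decide +kernel)

theorem inv_E : ∀ u ∈ t.P, u * u = 1 → u ∈ t.E1 ∨ u ∈ t.E2 := t.lx.decide t.rep (by decide +kernel)
theorem cenE1 : ∀ e ∈ t.E1, e ∉ t.Z → ∀ u ∈ t.P, u * e = e * u → u ∈ t.E1 := t.lx.decide t.rep (by decide +kernel)
theorem cenE2 : ∀ e ∈ t.E2, e ∉ t.Z → ∀ u ∈ t.P, u * e = e * u → u ∈ t.E2 := t.lx.decide t.rep (by decide +kernel)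
theorem cenP : ∀ y ∈ t.P, (∀ u ∈ t.X, u * y = y * u) → y ∈ t.Z := t.lx.decide t.rep (by decide +kernel)

theorem tens : ∀ a ∈ t.A0, a ≠ 1 → ∀ b ∈ t.B0, b ≠ 1 → Rec.Let (a * b * (a * b)) fun c => ∀ a' ∈ t.E1, ∀ b' ∈ t.E2,
    Rec.Let (a' * b') fun d => d * d = c → a * a' ∈ t.Z ∧ b * b' ∈ t.Z := t.lx.decide t.rep (by decide +kernel)

theorem bil : (∀ a ∈ t.A0, a * t.x34 * (a * t.x34) * (a * t.x35 * (a * t.x35)) =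
      a * (t.x34 * t.x35) * (a * (t.x34 * t.x35))) ∧
    ∀ b ∈ t.B0, t.x13 * b * (t.x13 * b) * (t.x23 * b * (t.x23 * b)) =
      t.x13 * t.x23 * b * (t.x13 * t.x23 * b) := t.lx.decide t.rep (by decide +kernel)

theorem swap : ∀ α ∈ t.E2, α ∉ t.Z → ∀ β ∈ t.E2, β ∉ t.Z → α * β ∉ t.Z →
    Rec.Let (t.x13 * α * t.x13⁻¹ * α⁻¹) fun f1 => Rec.Let (t.x23 * β * t.x23⁻¹ * β⁻¹) fun f2 =>
    Rec.Let (t.x13 * β * (t.x13 * β)) fun c => Rec.Let (c * (α * t.x23 * (α * t.x23))⁻¹) fun s =>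
      c ∈ t.Z ∧ f1 ∈ t.Z ∧ f2 ∈ t.Z ∧ s ∈ t.Z ∧ f1 ≠ 1 ∧ f2 ≠ 1 ∧ s ≠ 1 ∧ f1 * f2 ≠ 1 ∧ f1 * s ≠ 1 ∧ f2 * s ≠ 1 ∧
        f1 * f2 * s ≠ 1 ∧ f1 * f2 * s = t.x13 * t.x23 * (α * β) * (t.x13 * t.x23)⁻¹ * (α * β)⁻¹ :=
  t.lx.decide t.rep (by decide +kernel)

variable {t}

theorem cenV_or {n m w : G} (hn : ∀ y ∈ t.V, n * y * n⁻¹ ∈ t.V) (hm : ∀ y ∈ t.V, m * y * m⁻¹ ∈ t.V) (hw : w ∈ t.V)
    (h1 : w ≠ 1) (nw : n * w = w * n) (mw : m * w = w * m) :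
    (∀ y ∈ t.V, n * y = y * n) ∨ (∀ y ∈ t.V, m * y = y * m) ∨ ∀ y ∈ t.V, n * m * y = y * (n * m) := by
  obtain ⟨s, hs, s1, sw⟩ : ∃ s ∈ t.V, s ≠ 1 ∧ w ≠ s := by
    by_cases h : w = t.v1
    exacts [⟨_, t.hv.2.1, t.hv.2.2.2.1, h ▸ t.hv.2.2.2.2.2⟩, ⟨_, t.hv.1, t.hv.2.2.1, h⟩]
  have k1 : ∀ {n : G}, n * w = w * n → n * s * n⁻¹ = s → ∀ y ∈ t.V, n * y = y * n := fun {n} a b y hy => by
    have c : Commute n s := mul_inv_eq_iff_eq_mul.1 b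
    rcases t.klein w hw s hs h1 s1 sw y hy with rfl | rfl | rfl | rfl
    exacts [by simp, a, c, Commute.mul_right a c]
  have k2 : ∀ {n : G}, (∀ y ∈ t.V, n * y * n⁻¹ ∈ t.V) → n * w = w * n → n * s * n⁻¹ = s ∨ n * s * n⁻¹ = w * s :=
    fun {n} a b => by
      rcases t.klein w hw s hs h1 s1 sw _ (a s hs) with h | h | h | h
      · exact absurd (conj_eq_one.1 h) s1
      · exact absurd (mul_left_cancel (b.trans (mul_inv_eq_iff_eq_mul.1 h).symm)) sw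
      exacts [.inl h, .inr h]
  rcases k2 hn nw with a | a
  · exact .inl (k1 nw a)
  rcases k2 hm mw with b | b
  · exact .inr (.inl (k1 mw b))
  refine .inr (.inr (k1 (Commute.mul_left nw mw) ?_))
  calc _ = n * (m * s * m⁻¹) * n⁻¹ := by group
    _ = n * w * n⁻¹ * (n * s * n⁻¹) := by rw [b]; group
    _ = s := by rw [a, nw, mul_inv_cancel_right, ← mul_assoc, t.Zs w (t.VZ hw), one_mul]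

theorem mod_Z {n : G} (hn : ∀ p ∈ t.P, n * p * n⁻¹ ∈ t.P) (hV : ∀ y ∈ t.V, n * y = y * n)
    (hZ : ∀ y ∈ t.Z, n * y * n⁻¹ * y ∈ t.V) : n * t.x13 * n⁻¹ * t.x13 ∈ t.Z ∧ n * t.x23 * n⁻¹ * t.x23 ∈ t.Z ∧
      n * t.x34 * n⁻¹ * t.x34 ∈ t.Z ∧ n * t.x35 * n⁻¹ * t.x35 ∈ t.Z := by
  obtain ⟨-, z1, z2, e1, e2, a0, b0, -⟩ := t.hle
  obtain ⟨⟨m1, m2, m3, m4⟩, -⟩ := t.hl
  have k : ∀ a ∈ t.P, a * a = 1 → ∃ α ∈ t.X, ∃ ζ ∈ t.Z, n * a * n⁻¹ = α * ζ := fun a ha h =>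
    t.red _ (hn a ha) (by rw [conj_sq h]; exact one_mem _)
  obtain ⟨α1, p1, ζ1, q1, r1⟩ := k _ (e1 (a0 m1)) (t.E1c _ (a0 m1)).1
  obtain ⟨α2, p2, ζ2, q2, r2⟩ := k _ (e1 (a0 m2)) (t.E1c _ (a0 m2)).1
  obtain ⟨β1, p3, ζ3, q3, r3⟩ := k _ (e2 (b0 m3)) (t.E2c _ (b0 m3)).1
  obtain ⟨β2, p4, ζ4, q4, r4⟩ := k _ (e2 (b0 m4)) (t.E2c _ (b0 m4)).1
  have c : ∀ {a b α β ζ ξ x : G}, α ∈ t.X → β ∈ t.X → ζ ∈ t.Z → ξ ∈ t.Z → n * a * n⁻¹ = α * ζ → n * b * n⁻¹ = β * ξ →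
      x = b * a * b * a → β * α * β * α = n * x * n⁻¹ := fun h1 h2 h3 h4 h5 h6 h7 => by
    rw [← t.cm _ h1 _ h2 _ h3 _ h4, ← h5, ← h6, h7]
    group
  have z : ∀ x ∈ [t.x14, t.z, t.x24, t.x25], n * x * n⁻¹ * x ∈ t.V := fun x hx => hZ x (mem_clos hx)
  have h := t.rigid _ p1 _ p3
  simp only [let_iff] at h
  replace h := fun a => h a _ p2
  rw [c p1 p3 q1 q3 r1 r3 t.hc.1, c p2 p3 q2 q3 r2 r3 t.hc.2.2.1] at h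
  replace h := h (z _ (by simp)) (z _ (by simp)) _ p4
  rw [c p1 p4 q1 q4 r1 r4 t.hc.2.1, c p2 p4 q2 q4 r2 r4 t.hc.2.2.2] at h
  obtain ⟨rfl, rfl, rfl, rfl⟩ := h (z _ (by simp))
    (by rw [conj_mul]; exact mul_inv_eq_iff_eq_mul.2 (hV _ t.hv.1))
    (by rw [conj_mul, conj_mul]; exact mul_inv_eq_iff_eq_mul.2 (hV _ t.hv.2.1))
  have d : ∀ {a ζ : G}, a ∈ t.P → a * a = 1 → ζ ∈ t.Z → a * ζ * a ∈ t.Z := fun h1 h2 h3 => by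
    rwa [t.Zc _ h3 _ h1, mul_assoc, h2, mul_one]
  rw [r1, r2, r3, r4]
  exact ⟨d (e1 (a0 m1)) (t.E1c _ (a0 m1)).1 q1, d (e1 (a0 m2)) (t.E1c _ (a0 m2)).1 q2,
    d (e2 (b0 m3)) (t.E2c _ (b0 m3)).1 q3, d (e2 (b0 m4)) (t.E2c _ (b0 m4)).1 q4⟩

end Lt

end Cfsg.Agent.HeA
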