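import Mathlib
import Cfsg.Agent.Std.RuC

/-!
Involutions and fourth powers in the double cover of the Rudvalis group.
-/

set_option autoImplicit false
set_option maxRecDepth 100000

namespace Cfsg.Agent.Std.Ru

open Cfsg.Spor Cfsg.Agent.Spor Cfsg.Agent.Spor.FL Cfsg.Agent.Spor.MRu Subgroup

theorem gT_zero : gT 0 = iota ^ 2 :=
  eq_of_tab base lm.hB trivial trivial (lmG.tabs 0 (by omega)) (tab_iota.pow 2) chk_z

theorem le_commutator : genLt gT 15 ≤ commutator fourRu := genLt_le fun s _ => mem_commutator (LT.all_get hw2 s)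

theorem sq_mem : iota ^ 2 ∈ commutator fourRu := gT_zero ▸ le_commutator (mem_genLt _ (by omega))

theorem comm_one {u : fourRu} (hu : u ∈ genLt gT 15) : gT 1 * u = u * gT 1 := by
  have : genLt gT 15 ≤ centralizer {gT 1} := genLt_le fun j hj => mem_centralizer_singleton_iff.2
    (lmT.eq_of_tab (mul_mem (mem_genLt _ (by omega)) (mem_genLt _ hj)) (mul_mem (mem_genLt _ hj) (mem_genLt _ (by omega)))
      (Tab.mul (lmT.tabs 1 (by omega)) (lmT.tabs j hj)) (Tab.mul (lmT.tabs j hj) (lmT.tabs 1 (by omega)))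
      ((allLt_iff _ _).1 chk_c j hj)).symm
  exact (mem_centralizer_singleton_iff.1 (this hu)).symm

theorem root : (∃ b ∈ genLt gT 15, b ^ 4 = gT 1) ∧ ∃ b ∈ genLt gT 15, b ^ 4 = gT 1 * gT 0 := by
  have m : ∀ c, pcG gT 2 15 0 c ∈ genLt gT 15 := pcG_mem 15 0
  have m0 : gT 0 ∈ genLt gT 15 := mem_genLt _ (by omega)
  have m1 : gT 1 ∈ genLt gT 15 := mem_genLt _ (by omega)
  exact ⟨⟨_, m _, lmT.eq_of_tab (pow_mem (m _) 4) m1 ((tab_pcT lmT.tabs 15 0 _ le_rfl).pow 4)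
      (lmT.tabs 1 (by omega)) chk_r1⟩, _, m _, lmT.eq_of_tab (pow_mem (m _) 4) (mul_mem m1 m0)
      ((tab_pcT lmT.tabs 15 0 _ le_rfl).pow 4) (Tab.mul (lmT.tabs 1 (by omega)) (lmT.tabs 0 (by omega))) chk_r2⟩

theorem conj_cases {a : fourRu} (ha : a ∈ genLt gT 15) (h : a ^ 2 = 1) :
    a = 1 ∨ ∃ x : fourRu, x * a * x⁻¹ = gT 0 ∨ x * a * x⁻¹ = gT 1 ∨ x * a * x⁻¹ = gT 1 * gT 0 := by
  refine (conjTo ha h).imp_right fun ⟨t, ht, x, hx⟩ => ⟨x, ?_⟩
  have e0 : rw.get 0 = w.get 0 := by decide +kernel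
  have e1 : rw.get 1 = w.get 1 := by decide +kernel
  have e2 : rw.get 2 = appL (w.get 1) (w.get 0) := by decide +kernel
  interval_cases t
  · exact Or.inl (hx.trans (congrArg _ e0))
  · exact Or.inr (Or.inl (hx.trans (congrArg _ e1)))
  · exact Or.inr (Or.inr ((hx.trans (congrArg _ e2)).trans (evalW_appL _ _ _)))

theorem isPGroup_zpowers {G : Type*} [Group G] {a : G} {n : ℕ} (h : a ^ 2 ^ n = 1) : IsPGroup 2 (zpowers a) := by
  rintro ⟨_, k, rfl⟩
  refine ⟨n, Subtype.ext ?_⟩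
  change (a ^ k) ^ 2 ^ n = 1
  rw [← zpow_natCast, ← zpow_mul, mul_comm, zpow_mul, zpow_natCast, h, one_zpow]

theorem iota_sq_comm (x : fourRu) : x * iota ^ 2 = iota ^ 2 * x := (Commute.pow_right (iota_comm x) 2).eq

theorem iota_sq_sq : iota ^ 2 * iota ^ 2 = 1 := by
  rw [← pow_add, ← orderOf_dvd_iff_pow_eq_one, orderOf_iota]

variable {D : Subgroup fourRu} (hD : commutator fourRu ≤ D) (hc : Nat.card D = 291852288000)
include hD hc

theorem exists_conj {Q : Subgroup fourRu} (hQ : Q ≤ D) (h2 : IsPGroup 2 Q) :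
    ∃ x : fourRu, ∀ a ∈ Q, x * a * x⁻¹ ∈ genLt gT 15 := by
  have : Fact (Nat.Prime 2) := ⟨Nat.prime_two⟩
  have h1 := card_mul_index ((genLt gT 15).subgroupOf D)
  rw [Nat.card_congr (subgroupOfEquivOfLe (le_commutator.trans hD)).toEquiv, cb.1, hc] at h1
  obtain ⟨x, hx⟩ := exists_conj_le (p := 2) (H := (genLt gT 15).subgroupOf D) (by omega)
    (h2.comap_of_injective D.subtype D.subtype_injective)
  exact ⟨x, fun a ha => hx ⟨a, hQ ha⟩ ha⟩

theorem exists_conj' {a : fourRu} (ha : a ∈ D) {n : ℕ} (h : a ^ 2 ^ n = 1) :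
    ∃ x : fourRu, x * a * x⁻¹ ∈ genLt gT 15 := by
  obtain ⟨x, hx⟩ := exists_conj hD hc (zpowers_le.2 ha) (isPGroup_zpowers h)
  exact ⟨x, hx a (mem_zpowers a)⟩

theorem pow_four_ne {b : fourRu} (hb : b ∈ D) : b ^ 4 ≠ iota ^ 2 := fun e => by
  obtain ⟨x, hx⟩ := exists_conj' hD hc hb (n := 3) (by
    rw [show 2 ^ 3 = 4 * 2 from rfl, pow_mul, e, pow_two, iota_sq_sq])
  refine (allSq_spec lmT pc hH hL hS hx).1 ?_
  rw [conj_pow, e, gT_zero, iota_sq_comm, mul_inv_cancel_right]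

theorem central_sq {b : fourRu} (hb : b ∈ D) (h : ∀ u ∈ genLt gT 15, b * u = u * b) :
    b * b ≠ gT 1 ∧ b * b ≠ gT 1 * gT 0 := by
  by_contra h1
  have : Fact (Nat.Prime 2) := ⟨Nat.prime_two⟩
  have hT := pc.isPGroup two_pos cb.1.ge
  have h2 : b * b ∈ genLt gT 15 := by
    rcases not_and_or.1 h1 with e | e <;> rw [not_not.1 e]
    exacts [mem_genLt _ (by omega), mul_mem (mem_genLt _ (by omega)) (mem_genLt _ (by omega))]
  have h3 : IsPGroup 2 (zpowers b) := by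
    obtain ⟨n, hn⟩ := hT ⟨_, h2⟩
    exact isPGroup_zpowers (n := n + 1) (by rw [pow_succ', pow_mul, pow_two]; exact congrArg Subtype.val hn)
  have h4 := IsPGroup.to_sup_of_normal_right' h3 hT (zpowers_le.2 (mem_normalizer_fintype fun u hu => by
    rwa [h u hu, mul_inv_cancel_right]))
  obtain ⟨x, hx⟩ := exists_conj hD hc (sup_le (zpowers_le.2 hb) (le_commutator.trans hD)) h4
  have h5 := Nat.card_le_card_of_injective (fun a : (zpowers b ⊔ genLt gT 15 :) => (⟨_, hx a a.2⟩ : genLt gT 15))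
    fun a c e => Subtype.ext (by simpa using e)
  exact h1 ((allSq_spec lmT pc hH hL hS (eq_of_le_of_card_ge le_sup_right h5 ▸ mem_sup_left (mem_zpowers b))).2
    fun j hj => h _ (mem_genLt _ hj))

theorem involution {a : fourRu} (ha : a ∈ D) (a1 : a ≠ 1) (a2 : a ≠ iota ^ 2) (a3 : a * a = 1) :
    (∃ b ∈ D, b ^ 4 = a) ∧ ∃ U ≤ D, IsPGroup 2 U ∧ iota ^ 2 ∈ U ∧ (∀ u ∈ U, a * u = u * a) ∧
      ∀ b ∈ D, (∀ u ∈ U, b * u = u * b) → b * b ≠ a ∧ b * b ≠ a * iota ^ 2 := by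
  have : Fact (Nat.Prime 2) := ⟨Nat.prime_two⟩
  have hn : D.Normal := ⟨fun b hb x => by
    simpa [commutatorElement_def] using mul_mem (hD (commutator_mem_commutator (mem_top x) (mem_top b))) hb⟩
  have hT := le_commutator.trans hD
  obtain ⟨x, hx⟩ := exists_conj' hD hc ha (n := 1) (by rw [pow_one, pow_two, a3])
  obtain ⟨y, hy⟩ := (conj_cases hx (by rw [conj_pow, pow_two, a3]; simp)).resolve_left
    fun e => a1 (conj_eq_one_iff.1 e)
  rw [show y * (x * a * x⁻¹) * y⁻¹ = y * x * a * (y * x)⁻¹ by group] at hy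
  generalize y * x = v at hy
  have hz : ∀ c, v * (c * iota ^ 2) * v⁻¹ = v * c * v⁻¹ * gT 0 := fun c => by
    rw [gT_zero, ← mul_assoc, mul_assoc, ← iota_sq_comm, ← mul_assoc]
  have h1 : v * a * v⁻¹ = gT 1 ∨ v * a * v⁻¹ = gT 1 * gT 0 := hy.resolve_left fun e => a2 (by
    have := hz 1
    rw [one_mul, mul_one, mul_inv_cancel, one_mul, ← e, mul_left_inj, mul_right_inj] at this
    exact this.symm)
  refine ⟨?_, (genLt gT 15).comap (MulAut.conj v).toMonoidHom, fun u hu => ?_,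
    (pc.isPGroup two_pos cb.1.ge).comap_of_injective _ (MulAut.conj v).injective, ?_,
    fun u hu => (MulAut.conj v).injective ?_, fun b hb h => ?_⟩
  · obtain ⟨b, hb, e⟩ : ∃ b ∈ genLt gT 15, b ^ 4 = v * a * v⁻¹ := by
      rcases h1 with e | e <;> rw [e]
      exacts [root.1, root.2]
    exact ⟨v⁻¹ * b * v⁻¹⁻¹, hn.conj_mem _ (hT hb) _, by rw [conj_pow, e]; group⟩
  · simpa [mul_assoc] using hn.conj_mem _ (hT hu) v⁻¹
  · change v * iota ^ 2 * v⁻¹ ∈ genLt gT 15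
    rw [iota_sq_comm, mul_inv_cancel_right, ← gT_zero]
    exact mem_genLt _ (by omega)
  · rw [map_mul, map_mul]
    change v * a * v⁻¹ * (v * u * v⁻¹) = v * u * v⁻¹ * (v * a * v⁻¹)
    rcases h1 with e | e <;> rw [e]
    · exact comm_one hu
    · rw [gT_zero, mul_assoc, ← iota_sq_comm, ← mul_assoc, ← mul_assoc]
      exact congrArg (· * _) (comm_one hu)
  · have h2 := central_sq hD hc (hn.conj_mem b hb v) fun u hu => by
      have := h (v⁻¹ * u * v) (by change v * _ * v⁻¹ ∈ genLt gT 15; simpa [mul_assoc] using hu)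
      calc _ = v * (b * (v⁻¹ * u * v)) * v⁻¹ := by group
        _ = _ := by rw [this]; group
    rw [conj_mul] at h2
    constructor <;> intro e <;> rw [e] at h2
    · exact h1.elim h2.1 h2.2
    · rw [hz] at h2
      rcases h1 with e | e <;> rw [e] at h2
      · exact h2.2 rfl
      · exact h2.1 (by rw [mul_assoc, gT_zero, iota_sq_sq, mul_one])

end Cfsg.Agent.Std.Ru
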