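import Mathlib
import Cfsg.Agent.Spor.Ru.Perm
import Cfsg.Agent.Spor.FL.PC

/-!
The action of the fourfold cover of the Rudvalis group on the 16240 minimal vectors, and a test for fourth powers
and central squares in a polycyclic `2`-group.
-/

set_option autoImplicit false
set_option maxRecDepth 100000

namespace Cfsg.Agent.Std.Ru

open Cfsg.Spor Cfsg.Agent.Spor Cfsg.Agent.Spor.FL Cfsg.Agent.Spor.MRu Subgroup

attribute [local irreducible] V

theorem pow_smul_e {m : ℕ} (hm : m < 16240) (k : ℕ) : iota ^ k • e m = e ((m + 4060 * k) % 16240) := by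
  induction k with
  | zero => rw [pow_zero, one_smul, mul_zero, add_zero, Nat.mod_eq_of_lt hm]
  | succ k ih =>
    rw [pow_succ', mul_smul, ih, iota_smul, ← e_rt (Nat.mod_lt _ (by norm_num)), rt_eq]
    congr 1; omega

theorem eq_one_of_smul {g : fourRu} (hg : g ∈ zpowers iota) {n : ℕ} (h : g • e n = e n) : g = 1 := by
  have h2 : iota ^ 2 • e n ≠ e n := fun h1 => by
    rw [pow_two, mul_smul, iota_smul, iota_smul, ruI_ruI] at h1
    have h3 : ip (-V n) (V n) = ip (V n) (V n) := congrArg (fun x : ruLattice => ip x (V n)) h1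
    rw [ip_neg, ip_V] at h3
    omega
  classical
  obtain ⟨k, hk, rfl⟩ := Finset.mem_image.1 (mem_zpowers_iff_mem_range_orderOf.1 hg)
  rw [orderOf_iota, Finset.mem_range] at hk
  have h4 : iota ^ 4 = 1 := by rw [← orderOf_iota, pow_orderOf_eq_one]
  interval_cases k
  · rfl
  · exact absurd (by rw [pow_two, mul_smul, ← pow_one iota, h, h]) h2
  · exact absurd h h2
  · refine absurd ?_ h2
    rw [← mul_one (iota ^ 2), ← h4, ← pow_add, show 2 + 4 = 3 + 3 from rfl, pow_add, mul_smul, h, h]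

theorem inj : Set.InjOn e (Set.Iio 16240) := fun i hi j hj h => by
  have hi' : i < 16240 := hi
  have hj' : j < 16240 := hj
  have h1 : i % 4060 = j % 4060 := le_injOn (Nat.mod_lt _ (by norm_num)) (Nat.mod_lt _ (by norm_num))
    (by rw [← le_mod hi, ← le_mod hj, le, h, le])
  have h2 : ∀ i < 16240, e i = iota ^ (i / 4060) • e (i % 4060) := fun i hi => by
    rw [pow_smul_e (by omega), Nat.mod_add_div, Nat.mod_eq_of_lt hi]
  rw [h2 i hi, h2 j hj, h1, ← inv_smul_eq_iff, ← mul_smul] at h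
  have h3 := eq_one_of_smul (mul_mem (inv_mem (npow_mem_zpowers _ _)) (npow_mem_zpowers _ _)) h
  have h4 := pow_injOn_Iio_orderOf (x := iota) (by rw [orderOf_iota, Set.mem_Iio]; omega)
    (by rw [orderOf_iota, Set.mem_Iio]; omega) (inv_mul_eq_one.1 h3)
  omega

theorem base : IsBase e (⊤ : Subgroup fourRu) [0, 28, 50, 33] := fun a _ h => by
  refine eq_one_of_smul (fix_eq.1 ▸ mem_fixB.2 ⟨trivial, fun b hb => le_inj ?_⟩) (h 0 (by simp))
  have hb' : b < 4060 := by simp only [List.mem_cons, List.not_mem_nil, or_false] at hb; omega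
  rw [le_smul, finE_val hb', le, smul_ln, h b hb]

/-- The tables of the two generators. -/
noncomputable def X (x n : ℕ) : ℕ := force n fun n => force (Nat.mod n 4060) fun r =>
  Nat.mod (Nat.add (Bool.rec (Tb r) (Ta r) (Nat.beq x 0)) (Nat.sub n r)) 16240

theorem tab_aux {g : fourRu} {T : ℕ → ℕ} (h : ∀ i < 4060, T i < 16240 ∧ g • e i = e (T i)) :
    Tab e 16240 (fun n => (T (n % 4060) + (n - n % 4060)) % 16240) g := fun n hn => by
  refine ⟨Nat.mod_lt _ (by norm_num), ?_⟩
  obtain ⟨h1, h2⟩ := h (n % 4060) (Nat.mod_lt _ (by norm_num))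
  have h3 := pow_smul_e (m := n % 4060) (by omega) (n / 4060)
  rw [Nat.mod_add_div, Nat.mod_eq_of_lt hn] at h3
  rw [← h3, ← mul_smul, (Commute.pow_right (iota_comm g) _).eq, mul_smul, h2, pow_smul_e h1]
  congr 2; omega

theorem tabs : Tabs e 16240 X gF 2 := fun x hx => by
  interval_cases x
  · exact tab_aux (exists_aut chk_aa chk_ab).choose_spec
  · exact tab_aux (exists_aut chk_ba chk_bb).choose_spec

theorem tab_iota : Tab e 16240 rt iota := fun n hn => ⟨rt_lt n, (e_rt hn).symm⟩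

theorem lm : LM e 16240 X gF 2 [0, 28, 50, 33] := ⟨inj, tabs, base.mono le_top, by decide⟩

theorem of_evalW {w : List ℕ} (hw : lettersLt 2 w = true) : Abelianization.of (evalW gF w) =
    Abelianization.of (gF 0) ^ w.count 0 * Abelianization.of (gF 1) ^ w.count 1 := by
  induction w with
  | nil => simp
  | cons x w ih =>
    have h := (lettersLt_iff _ _).1 hw
    have hx := h x (by simp)
    rw [evalW_cons, map_mul, ih ((lettersLt_iff _ _).2 fun y hy => h y (by simp [hy]))]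
    interval_cases x <;> simp [pow_succ', mul_assoc, mul_left_comm]

/-- Words with an even number of letters `0` lie in the commutator subgroup. -/
theorem mem_commutator {w : List ℕ} (hw : band (lettersLt 2 w) (Nat.beq (w.count 0 % 2) 0) = true) :
    evalW gF w ∈ commutator fourRu := by
  rw [band_iff, nbeq_iff] at hw
  have h0 := of_evalW (w := [0, 0]) rfl
  have h1 := of_evalW (w := [1, 1, 1, 1]) rfl
  have h2 := of_evalW (w := powW 15 [0, 1, 0, 1, 0, 1, 1, 1, 0, 1, 1, 0, 1, 0, 1, 1, 1]) (by decide +kernel)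
  rw [tabs.eq_one_of_base lm.base lm.hB (by decide +kernel), map_one] at h0 h1 h2
  rw [show List.count 0 (powW 15 [0, 1, 0, 1, 0, 1, 1, 1, 0, 1, 1, 0, 1, 0, 1, 1, 1]) = 2 * 45 by decide +kernel,
    show List.count 1 (powW 15 [0, 1, 0, 1, 0, 1, 1, 1, 0, 1, 1, 0, 1, 0, 1, 1, 1]) = 4 * 41 + 1 by decide +kernel] at h2
  have h3 : Abelianization.of (gF 0) ^ 2 = 1 := by simpa using h0.symm
  have h4 : Abelianization.of (gF 1) ^ 4 = 1 := by simpa using h1.symm
  rw [pow_mul, h3, pow_succ _ (4 * 41), pow_mul, h4, one_pow, one_pow, one_mul, one_mul] at h2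
  rw [← Abelianization.ker_of, MonoidHom.mem_ker, of_evalW hw.1, ← h2, one_pow, mul_one,
    ← Nat.div_add_mod (w.count 0) 2, hw.2, add_zero, pow_mul, h3, one_pow]

section

variable {G α : Type*} [Group G] [MulAction G α] {e : ℕ → α} {n : ℕ} {T : ℕ → ℕ → ℕ} {g : ℕ → G} {k : ℕ}
  {B : List ℕ}

theorem cls_leaf (h : LM e n T g k B) {pw rw : LT} (hpw : pw.all (lettersLt k) = true)
    (hrw : rw.all (lettersLt k) = true) {p m r c : ℕ} {N : ℕ → ℕ} {D : LT}
    (hc : ∀ j < c, leafOK T k B pw rw p m r N D j = true) :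
    Cls (fun s => evalW g (pw.get s)) p m (ConjTo (fun s => evalW g (rw.get s)) r) 0 N c := cls_zero fun j hj => by
  have h1 := hc j hj
  simp only [leafOK, force_eq, bor_iff, band_iff, nbeq_iff, blt_iff] at h1
  rcases h1 with h1 | ⟨a1, a2, a3⟩
  · exact Or.inl (by rw [h1, pcG_zero])
  · refine Or.inr ⟨_, a1, evalW g (tlL (D.get j)), ?_⟩
    rw [mul_inv_eq_iff_eq_mul]
    have ht : Tabs e n (wT T pw) (fun s => evalW g (pw.get s)) m := fun s _ => h.tabs.evalW (LT.all_get hpw s)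
    exact h.eq_of_tab (mul_mem (evalW_mem_genLt g a2) (words_le_genLt hpw _ (pcG_mem m 0 _)))
      (mul_mem (evalW_mem_genLt g (LT.all_get hrw _)) (evalW_mem_genLt g a2))
      (Tab.mul (h.tabs.evalW a2) (tab_pcT ht m 0 _ (by omega)))
      (Tab.mul (h.tabs.evalW (LT.all_get hrw _)) (h.tabs.evalW a2)) a3

/-- If `f` is the table of `b`, then `b ^ 4 ≠ g 0`, and `b` is not central if its square is `g 1` or `g 1 * g 0`. -/
noncomputable def sqOK (T : ℕ → ℕ → ℕ) (k : ℕ) (B : List ℕ) (f : ℕ → ℕ) : Bool :=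
  band (!allL B fun p => Nat.beq (f (f (f (f p)))) (T 0 p))
    (bor (band (!allL B fun p => Nat.beq (f (f p)) (T 1 p)) (!allL B fun p => Nat.beq (f (f p)) (T 1 (T 0 p))))
      (!allLt k fun j => allL B fun p => Nat.beq (f (T j p)) (T j (f p))))

theorem sqOK_spec (h : LM e n T g k B) (hk : 2 ≤ k) {f : ℕ → ℕ} {b : G} (hb : Tab e n f b)
    (hc : sqOK T k B f = true) :
    b ^ 4 ≠ g 0 ∧ ((∀ j < k, b * g j = g j * b) → b * b ≠ g 1 ∧ b * b ≠ g 1 * g 0) := by
  simp only [sqOK, band_iff, bor_iff] at hc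
  have t0 := h.tabs 0 (by omega)
  have t1 := h.tabs 1 (by omega)
  refine ⟨ne_of_tab h.inj (hb.pow 4) t0 h.hB hc.1, fun h1 => ?_⟩
  rcases hc.2 with h2 | h2
  · exact ⟨ne_of_tab h.inj (Tab.mul hb hb) t1 h.hB h2.1,
      ne_of_tab h.inj (Tab.mul hb hb) (Tab.mul t1 t0) h.hB h2.2⟩
  · rw [Bool.not_eq_true', ← Bool.not_eq_true, allLt_iff] at h2
    refine absurd (fun j hj => by_contra fun h3 => ?_) h2
    exact ne_of_tab h.inj (Tab.mul hb (h.tabs j hj)) (Tab.mul (h.tabs j hj) hb) h.hB (by simpa using h3) (h1 j hj)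

/-- The entries of `H` are the tables of the elements `pcG g 2 f i c`. -/
noncomputable def cutOK (T : ℕ → ℕ → ℕ) (n f i : ℕ) (H : BT) (c : ℕ) : Bool :=
  force (H.get c) fun h => allLt n fun p => Nat.beq (pcT T 2 f i c p) (getP 7 127 h p)

/-- The test `sqOK` for all elements with a given upper half of the code. -/
noncomputable def allSq (T : ℕ → ℕ → ℕ) (k : ℕ) (B : List ℕ) (H L : BT) (c : ℕ) : Bool :=
  force (H.get c) fun h => allLt 256 fun d => force (L.get d) fun l =>
    sqOK T k B fun p => getP 7 127 h (getP 7 127 l p)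

theorem allSq_spec [Finite G] (h : LM e n T g 15 B) (hpc : IsPC g 2 15) {H L : BT}
    (hH : ∀ c < 128, cutOK T n 7 8 H c = true) (hL : ∀ c < 256, cutOK T n 8 0 L c = true)
    (hc : ∀ c < 128, allSq T 15 B H L c = true) {b : G} (hb : b ∈ genLt g 15) :
    b ^ 4 ≠ g 0 ∧ ((∀ j < 15, b * g j = g j * b) → b * b ≠ g 1 ∧ b * b ≠ g 1 * g 0) := by
  obtain ⟨c, h1, rfl⟩ := hpc.exists_code two_pos hb
  obtain ⟨d, h2, h3⟩ := (hpc.mono (k' := 8) (by omega)).exists_code two_pos (pcG_mem (p := 2) 8 0 c)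
  have h4 : c / 2 ^ 8 < 128 := by omega
  rw [pcG_add 8 7, h3]
  have t : ∀ f i H c, i + f ≤ 15 → cutOK T n f i H c = true → Tab e n (getP 7 127 (H.get c)) (pcG g 2 f i c) :=
    fun f i H c h5 h6 => (tab_pcT h.tabs f i c h5).congr fun p hp => (nbeq_iff _ _).1 ((allLt_iff _ _).1 h6 p hp)
  have h5 := hc _ h4
  rw [allSq, force_eq, allLt_iff] at h5
  exact sqOK_spec h (by omega) (Tab.mul (t _ _ _ _ le_rfl (hH _ h4)) (t _ _ _ _ (by omega) (hL d h2))) (h5 d h2)

end

end Cfsg.Agent.Std.Ru
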